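import Cfsg.Agent.H62.C3SpBase
import Cfsg.Agent.H62.UTv

set_option autoImplicit false

/-! Hermitian forms which are traces of Hermitian forms over an extension field: basic facts. -/

namespace H62

open Module H59

theorem dvd_card_of_bilin {E U W : Type*} [Field E] [Fintype E] [AddCommGroup U]
    [AddCommGroup W] [Module E U] [Module E W] (p : ℕ) [CharP E p] {m n : ℕ}
    (b : Basis (Fin m) E U) (c : Basis (Fin n) E W) (β : U →ₗ[E] U →ₗ[E] W) (h : n * 2 < m) :
    p ∣ Nat.card {v : U // β v v = 0} := by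
  classical
  obtain ⟨f, hf⟩ : ∃ f : Fin n → MvPolynomial (Fin m) E, f = fun k =>
    ∑ i, ∑ j, MvPolynomial.C (c.repr (β (b i) (b j)) k) * (MvPolynomial.X i * MvPolynomial.X j) :=
    ⟨_, rfl⟩
  have hdeg : ∀ k, (f k).totalDegree ≤ 2 := by
    intro k
    rw [hf]
    refine MvPolynomial.totalDegree_finsetSum_le (fun i _ => ?_)
    refine MvPolynomial.totalDegree_finsetSum_le (fun j _ => ?_)
    refine (MvPolynomial.totalDegree_mul _ _).trans ?_
    rw [MvPolynomial.totalDegree_C, zero_add]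
    refine (MvPolynomial.totalDegree_mul _ _).trans ?_
    simp
  have hlt : ∑ k, (f k).totalDegree < Fintype.card (Fin m) := by
    calc ∑ k, (f k).totalDegree ≤ ∑ _k : Fin n, 2 := Finset.sum_le_sum (fun k _ => hdeg k)
      _ < _ := by simpa using h
  have heval : ∀ (x : Fin m → E) k,
      MvPolynomial.eval x (f k) = c.repr (β (∑ i, x i • b i) (∑ i, x i • b i)) k := by
    intro x k
    simp only [hf, map_sum, map_mul, MvPolynomial.eval_C, MvPolynomial.eval_X, LinearMap.sum_apply,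
      map_smul, LinearMap.smul_apply, Finsupp.coe_finsetSum, Finset.sum_apply, Finsupp.coe_smul,
      Pi.smul_apply, smul_eq_mul, Finset.mul_sum]
    rw [Finset.sum_comm]
    refine Finset.sum_congr rfl (fun i _ => Finset.sum_congr rfl (fun j _ => by ring))
  have h3 := char_dvd_card_solutions_of_fintype_sum_lt p hlt
  rw [Fintype.card_eq_nat_card] at h3
  rwa [Nat.card_congr (b.equivFun.symm.toEquiv.subtypeEquiv (q := fun v => β v v = 0) fun x => ?_)]
    at h3
  simp only [heval, LinearEquiv.coe_toEquiv, Basis.equivFun_symm_apply]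
  exact ⟨fun h => c.repr.injective (Finsupp.ext fun k => by rw [h k, c.repr.map_zero]; rfl),
    fun h k => by rw [h, c.repr.map_zero]; rfl⟩

theorem dvd_card_of_zmod {U W : Type*} [AddCommGroup U] [AddCommGroup W] [Finite U] [Finite W]
    {p : ℕ} [hp : Fact p.Prime] [Module (ZMod p) U] [Module (ZMod p) W]
    (β : U →+ U →+ W) (h : Nat.card W * Nat.card W < Nat.card U) :
    p ∣ Nat.card {v : U // β v v = 0} := by
  refine dvd_card_of_bilin p (finBasis (ZMod p) U) (finBasis (ZMod p) W)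
    (LinearMap.mk₂ (ZMod p) (fun u v => β u v)
    (fun _ _ _ => by simp) (fun a u v => ((β.flip v).toZModLinearMap p).map_smul a u)
    (fun _ _ _ => by simp) (fun a u v => ((β u).toZModLinearMap p).map_smul a v)) ?_
  rw [Module.natCard_eq_pow_finrank (K := ZMod p) (V := U),
    Module.natCard_eq_pow_finrank (K := ZMod p) (V := W), ← pow_add, Nat.card_zmod,
    Nat.pow_lt_pow_iff_right hp.out.one_lt] at h
  omega

theorem dvd_card_of_biadd {U W : Type*} [AddCommGroup U] [AddCommGroup W] [Finite U] [Finite W]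
    {p : ℕ} (hp : p.Prime) (hU : ∀ u : U, p • u = 0) (hW : ∀ w : W, p • w = 0)
    (β : U →+ U →+ W) (h : Nat.card W * Nat.card W < Nat.card U) :
    p ∣ Nat.card {v : U // β v v = 0} :=
  @dvd_card_of_zmod U W _ _ _ _ p ⟨hp⟩ (AddCommGroup.zmodModule hU)
    (AddCommGroup.zmodModule hW) β h

variable {F K V : Type*} [Field F] [Field K] [Algebra F K] [AddCommGroup V] [Module F V]
  [Module K V] [IsScalarTower F K V] {σ : F →+* F} {θ : K →+* K}

/-- `B` is obtained from the Hermitian `K`-form `b` by the functional `c`. -/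
structure UTr (B : V →ₛₗ[σ] V →ₗ[F] F) (b : V →ₛₗ[θ] V →ₗ[K] K) (c : Dual F K) : Prop where
  hB : IsHerm B
  hb : IsHerm b
  ne : c ≠ 0
  ext : ∀ a : F, θ (algebraMap F K a) = algebraMap F K (σ a)
  conj : ∀ x, c (θ x) = σ (c x)
  eq : ∀ x y, B x y = c (b x y)

variable {B : V →ₛₗ[σ] V →ₗ[F] F} {b : V →ₛₗ[θ] V →ₗ[K] K} {c : Dual F K}

namespace UTr

theorem smul (h : UTr B b c) (a : F) (x : K) : θ (a • x) = σ a • θ x := by
  rw [Algebra.smul_def, Algebra.smul_def, map_mul, h.ext]

theorem eq_smul (h : UTr B b c) (x y : V) (k : K) : B x (k • y) = c (k * b x y) := by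
  simp [h.eq]

theorem eq_smul' (h : UTr B b c) (x y : V) (k : K) : B (k • x) y = c (θ k * b x y) := by
  rw [h.eq, form_smul_left]

theorem ext_left (h : UTr B b c) {x y : K} (h0 : ∀ k, c (θ k * x) = c (θ k * y)) : x = y :=
  dual_mul_ext h.ne fun k => by simpa [h.hb.invol] using h0 (θ k)

theorem kl_sing (h : UTr B b c) {w x y : V} (hw : b w w = 0) (hx : x ∈ kl F K w)
    (hy : y ∈ kl F K w) : B x y = 0 := by
  obtain ⟨k, rfl⟩ := mem_kl.1 hx
  obtain ⟨l, rfl⟩ := mem_kl.1 hy
  simp [h.eq, hw]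

theorem exists_fix (h : UTr B b c) {ω : F} (hω : σ ω ≠ ω) (a : K) :
    ∃ x y : K, θ x = x ∧ θ y = y ∧ a = x + ω • y := by
  have h1 : ω - σ ω ≠ 0 := sub_ne_zero.2 hω.symm
  have h2 : σ ω - ω ≠ 0 := sub_ne_zero.2 hω
  have h3 : θ ((ω - σ ω)⁻¹ • (a - θ a)) = (ω - σ ω)⁻¹ • (a - θ a) := by
    rw [h.smul, map_inv₀, map_sub, map_sub, h.hB.invol, h.hb.invol, ← neg_sub ω, ← neg_sub a,
      inv_neg, neg_smul_neg]
  refine ⟨a - ω • (ω - σ ω)⁻¹ • (a - θ a), _, ?_, h3, by abel⟩
  rw [map_sub, h.smul, h3]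
  match_scalars <;> field_simp <;> ring

theorem exists_skew (h : UTr B b c) {ω : F} (hω : σ ω ≠ ω) (a : K) :
    ∃ x y : K, x + θ x = 0 ∧ y + θ y = 0 ∧ a = x + ω • y := by
  obtain ⟨s, hs0, hs⟩ := exists_trace_zero_ne_zero h.hB.ne_id h.hB.invol
  obtain ⟨x, y, hx, hy, e⟩ := h.exists_fix hω (s⁻¹ • a)
  refine ⟨s • x, s • y, by rw [h.smul, hx, ← add_smul, hs, zero_smul],
    by rw [h.smul, hy, ← add_smul, hs, zero_smul], ?_⟩
  rw [smul_comm ω, ← smul_add, ← e, smul_inv_smul₀ hs0]

/-- An `F`-subspace containing the skew elements is everything. -/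
theorem mem_of_skew (h : UTr B b c) {S : Submodule F K} (hS : ∀ l, l + θ l = 0 → l ∈ S) (a : K) :
    a ∈ S := by
  obtain ⟨ω, hω⟩ := exists_not_fixed h.hB.ne_id
  obtain ⟨x, y, hx, hy, rfl⟩ := h.exists_skew hω a
  exact S.add_mem (hS x hx) (S.smul_mem _ (hS y hy))

theorem exists_skew_ne (h : UTr B b c) : ∃ l : K, l + θ l = 0 ∧ c l ≠ 0 := by
  by_contra! hc
  exact h.ne (LinearMap.ext fun a => h.mem_of_skew (S := LinearMap.ker c) hc a)

/-- The target of the quadratic maps. -/
def tgt (_h : UTr B b c) : AddSubgroup K where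
  carrier := {y | θ y = y ∧ c y = 0}
  zero_mem' := by simp
  add_mem' := fun ha hb => by simp [ha.1, ha.2, hb.1, hb.2]
  neg_mem' := fun ha => by simp [ha.1, ha.2]

theorem card_tgt [Finite K] (h : UTr B b c) : Nat.card h.tgt * Nat.card h.tgt < Nat.card K := by
  obtain ⟨ω, hω⟩ := exists_not_fixed h.hB.ne_id
  obtain ⟨x₀, hx₀⟩ := exists_dual_apply_eq_one h.ne
  classical
  letI := Fintype.ofFinite K
  letI := Fintype.ofFinite (h.tgt × h.tgt)
  rw [← Nat.card_prod, Nat.card_eq_fintype_card, Nat.card_eq_fintype_card]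
  refine Fintype.card_lt_of_injective_of_notMem (fun p => (p.1 : K) + ω • (p.2 : K)) ?_ (b := x₀) ?_
  · rintro ⟨x, y⟩ ⟨x', y'⟩ e
    have e1 : (x : K) + ω • (y : K) = x' + ω • (y' : K) := e
    have e2 := congrArg θ e1
    rw [map_add, map_add, h.smul, h.smul, x.2.1, y.2.1, x'.2.1, y'.2.1] at e2
    have e3 : (ω - σ ω) • ((y : K) - y') = 0 := by
      linear_combination (norm := module) e1 - e2
    have e4 : (y : K) = y' :=
      sub_eq_zero.1 ((smul_eq_zero_iff_right (sub_ne_zero.2 hω.symm)).1 e3)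
    rw [e4, add_left_inj] at e1
    exact Prod.ext (Subtype.ext e1) (Subtype.ext e4)
  · rintro ⟨⟨x, y⟩, e⟩
    have e1 := congrArg c e
    simp [x.2.2, y.2.2, hx₀] at e1

/-- Chevalley-Warning for a biadditive map killed by `c`. -/
theorem dvd_card [Finite K] (h : UTr B b c) {U : Type*} [AddCommGroup U] [Finite U] {p : ℕ}
    [CharP K p] (hU : ∀ u : U, p • u = 0) (hc : Nat.card K ≤ Nat.card U) (β : U →+ U →+ K)
    (hβ : ∀ u v, c (β u v) = 0) : p ∣ Nat.card {v : U // β v v + θ (β v v) = 0} := by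
  let β' : U →+ U →+ h.tgt :=
    { toFun := fun u =>
        { toFun := fun v => ⟨β u v + θ (β u v), by simp [h.hb.invol, add_comm], by
            simp [h.conj, hβ]⟩
          map_zero' := by ext; simp
          map_add' := fun _ _ => by ext; simp; ring }
      map_zero' := by ext; simp
      map_add' := fun _ _ => by ext; simp; ring }
  have := dvd_card_of_biadd (CharP.char_is_prime K p) hU (fun w => by ext; simp) β'
    (h.card_tgt.trans_le hc)
  simpa [β', Subtype.ext_iff] using this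

end UTr

end H62
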