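import Cfsg.Agent.H42.IVSpec

/-! # S3929, slot P2: the degree of an abelian 2-group with an element of order `2 ^ e` -/

set_option autoImplicit false

namespace H62.IV

open Subgroup MulAction

universe u

theorem card_eq {G : Type*} [Group G] (N V : Subgroup G) :
    Nat.card V = Nat.card (N ⊓ V : Subgroup G) * N.relIndex V := by
  rw [← inf_relIndex_right, relIndex, ← card_mul_index ((N ⊓ V).subgroupOf V),
    Nat.card_congr (subgroupOfEquivOfLe (inf_le_right : N ⊓ V ≤ V)).toEquiv]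

theorem card_inf_le {G : Type*} [Group G] [Finite G] (V : Subgroup G) (y : G)
    (hV : ∀ v ∈ V, v ^ 2 = 1) : Nat.card (V ⊓ zpowers y : Subgroup G) ≤ 2 := by
  have : IsCyclic (V ⊓ zpowers y : Subgroup G) := isCyclic_of_le (H' := zpowers y) inf_le_right
  rw [← IsCyclic.exponent_eq_card]
  exact Nat.le_of_dvd two_pos
    (Monoid.exponent_dvd_of_forall_pow_eq_one fun g => Subtype.ext (hV g g.2.1))

theorem jobP2 : H42.IV.JobP2.{u} := by
  intro P1 Y _ _ _ Ω _ f V y e w hY hf hV h2 hy he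
  have : Fact (Nat.Prime 2) := ⟨Nat.prime_two⟩
  let : MulAction Y Ω := MulAction.compHom Ω f
  have sm : ∀ (g : Y) (x : Ω), g • x = f g x := fun _ _ => rfl
  obtain ⟨e, rfl⟩ : ∃ k, e = k + 1 := ⟨e - 1, by omega⟩
  have y1 : y ^ 2 ^ e ≠ 1 := pow_ne_one_of_lt_orderOf (by positivity)
    (hy ▸ Nat.pow_lt_pow_right one_lt_two (Nat.lt_succ_self e))
  obtain ⟨ω, hω⟩ : ∃ ω : Ω, (y ^ 2 ^ e) • ω ≠ ω := by
    by_contra hn
    push Not at hn
    exact y1 (hf (by rw [map_one]; exact Equiv.ext hn))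
  let K := stabilizer Y ω
  have : K.Normal := ⟨fun n hn g => by rwa [mul_comm' g n, mul_inv_cancel_right]⟩
  let S : SubMulAction Y Ω := ⟨(orbit Y ω)ᶜ, fun g x hx hn => hx (by
    obtain ⟨k, hk⟩ := hn
    exact ⟨g⁻¹ * k, by simp only [mul_smul]; rw [show k • ω = g • x from hk, inv_smul_smul]⟩)⟩
  obtain ⟨a, ha⟩ := (hY.to_subgroup (K ⊓ V)).exists_card_eq
  have h1 := P1 Y S (toPermHom Y S) (K ⊓ V) 0 a hY (fun v hv h => hf (by
    rw [map_one]
    ext x
    by_cases hx : x ∈ orbit Y ω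
    · obtain ⟨k, rfl⟩ := hx
      show v • k • ω = k • ω
      rw [← mul_smul, mul_comm' v k, mul_smul, mem_stabilizer_iff.1 hv.1]
    · exact congrArg Subtype.val (Equiv.congr_fun h (⟨x, hx⟩ : S)))) ha
    fun v hv => ⟨h2 v hv.2, v, by simp⟩
  have h3 : (orbit Y ω).ncard + Nat.card S = Nat.card Ω := Set.ncard_add_ncard_compl _
  have h4 : Nat.card (Y ⧸ K) = (orbit Y ω).ncard := index_stabilizer Y ω
  let π := QuotientGroup.mk' K
  have oy : orderOf (π y) = 2 ^ (e + 1) := by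
    refine orderOf_eq_prime_pow ?_ (by rw [← map_pow, ← hy, pow_orderOf_eq_one, map_one])
    rw [← map_pow]
    exact fun h => hω ((QuotientGroup.eq_one_iff _).1 h)
  have h5 : Nat.card V = Nat.card (K ⊓ V : Subgroup Y) * Nat.card (V.map π) := by
    rw [card_eq K V, ← relIndex_ker, QuotientGroup.ker_mk']
  obtain ⟨b, hb⟩ := ((hY.to_subgroup V).map π).exists_card_eq
  rw [hV, ha, hb, ← pow_add] at h5
  have hw : w = a + b := Nat.pow_right_injective le_rfl h5
  have : (V.map π).Normal := ⟨by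
    rintro _ ⟨v, hv, rfl⟩ g
    obtain ⟨g, rfl⟩ := QuotientGroup.mk'_surjective K g
    exact ⟨v, hv, by rw [← map_inv, ← map_mul, ← map_mul, mul_comm' g v, mul_inv_cancel_right]⟩⟩
  have h6 := card_eq (V.map π) (zpowers (π y))
  have h7 := card_eq (V.map π) (zpowers (π y) ⊔ V.map π)
  rw [inf_eq_left.2 le_sup_right, relIndex_sup_right, hb] at h7
  rw [Nat.card_zpowers, oy] at h6
  have h8 := card_inf_le (V.map π) (π y) (by
    rintro _ ⟨v, hv, rfl⟩
    rw [← map_pow, h2 v hv, map_one])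
  have h9 : Nat.card (zpowers (π y) ⊔ V.map π : Subgroup (Y ⧸ K)) ≤ Nat.card (Y ⧸ K) :=
    card_le_card_group _
  have h10 : 2 ^ (e + 1) ≤ Nat.card (Y ⧸ K) := oy ▸ orderOf_le_card
  have h11 : 2 ^ e ≤ (V.map π).relIndex (zpowers (π y)) := by
    have := Nat.mul_le_mul_right ((V.map π).relIndex (zpowers (π y))) h8
    rw [← h6, pow_succ] at this
    omega
  have h12 : 2 ^ b * 2 ^ e ≤ Nat.card (Y ⧸ K) :=
    (Nat.mul_le_mul_left _ h11).trans (h7 ▸ h9)
  have h13 : 2 ^ (e + 1) + 2 * b ≤ Nat.card (Y ⧸ K) + 2 := by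
    rcases b with _ | b
    · omega
    · have k1 := Nat.lt_two_pow_self (n := b)
      have k2 := Nat.one_le_two_pow (n := e)
      rw [pow_succ] at h12 ⊢
      nlinarith
  omega

end H62.IV
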