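import Cfsg.Agent.H52.SimXSSpec

/-! S3694, tower SIM, chapter XS, slot `Av2`. -/

set_option autoImplicit false

namespace H62.SimAv2

open Subgroup Cfsg H98 Matrix H0.Sim H52.XS
open scoped commutatorElement

theorem job : JobAv2 := by
  intro n F _ _ Z E P ex av w
  classical
  have : Fintype E := Fintype.ofFinite E
  have sc : ∀ z ∈ Z, ∀ m : Mt n F, (z : Mt n F) * m = m * (z : Mt n F) := fun z hz m => by
    obtain ⟨c, hc⟩ := ex.Zc z hz
    rw [hc]; exact (Matrix.scalar_commute c (fun _ => mul_comm _ _) m).eq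
  let S : E → Mt n F := fun e => ∑ x : E, ((x * e * x⁻¹ : E) : GL (Fin n) F)
  have h1 : ∀ e : E, (e : GL (Fin n) F) ∈ Z → S e = (Nat.card E : F) • ((e : GL (Fin n) F) : Mt n F) := by
    intro e he
    have : ∀ x : E, (((x * e * x⁻¹ : E) : GL (Fin n) F) : Mt n F) = (e : GL (Fin n) F) := fun x => by
      simp only [coe_mul, Units.val_mul]
      rw [← sc _ he, mul_assoc, ← Units.val_mul, ← coe_mul, mul_inv_cancel]
      simp
    simp only [S, this, Finset.sum_const, Finset.card_univ, Nat.card_eq_fintype_card,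
      Nat.cast_smul_eq_nsmul]
  have h2 : ∀ e : E, (e : GL (Fin n) F) ∉ Z → S e = 0 := by
    intro e he
    obtain ⟨y, hy, hne⟩ : ∃ y ∈ E, (e : GL (Fin n) F) * y ≠ y * e := by
      by_contra h
      push Not at h
      exact he (ex.ce e e.2 h)
    have hz := ex.cm y hy e e.2
    obtain ⟨c, hc⟩ := ex.Zc _ hz
    have c1 : c ≠ 1 := fun h => hne (by
      rw [h, map_one] at hc
      exact (commutatorElement_eq_one_iff_mul_comm.1 (Units.ext hc)).symm)
    have h3 : S e = c • S e := by
      simp only [S]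
      rw [Finset.smul_sum, ← Equiv.sum_comp (Equiv.mulRight (⟨y, hy⟩ : E))]
      refine Finset.sum_congr rfl fun x _ => ?_
      have e1 : ((x * ⟨y, hy⟩ * e * (x * ⟨y, hy⟩)⁻¹ : E) : GL (Fin n) F) =
          x * ⁅y, (e : GL (Fin n) F)⁆ * (e * (x : GL (Fin n) F)⁻¹) := by
        simp only [coe_mul, coe_inv, commutatorElement_def]; group
      rw [Equiv.coe_mulRight, e1, Units.val_mul, Units.val_mul, ← sc _ hz, hc, mul_assoc,
        Matrix.scalar_apply, ← Matrix.smul_eq_diagonal_mul]
      simp only [coe_mul, coe_inv, Units.val_mul, mul_assoc]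
    have h4 : (1 - c) • S e = 0 := by rw [sub_smul, one_smul, ← h3, sub_self]
    exact (smul_eq_zero.1 h4).resolve_left (sub_ne_zero.2 c1.symm)
  refine smul_right_injective _ ex.un ?_
  simp only [finsum_eq_sum_of_fintype]
  rw [Finset.smul_sum]
  have h5 : ∀ x : E, (Nat.card E : F) • (((x : GL (Fin n) F) : Mt n F) *
      P ((((x : GL (Fin n) F)⁻¹ : GL (Fin n) F) : Mt n F) * w)) =
      ∑ e : E, (((x * e * x⁻¹ : E) : GL (Fin n) F) : Mt n F) *
        (w * (((e : GL (Fin n) F)⁻¹ : GL (Fin n) F) : Mt n F)) := fun x => by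
    rw [← mul_smul_comm, av.fm, finsum_eq_sum_of_fintype, Finset.mul_sum]
    refine Finset.sum_congr rfl fun e _ => ?_
    simp only [coe_mul, coe_inv, Units.val_mul, mul_assoc]
  simp only [h5]
  rw [Finset.sum_comm]
  have h6 : ∀ e : E, ∑ x : E, (((x * e * x⁻¹ : E) : GL (Fin n) F) : Mt n F) *
      (w * (((e : GL (Fin n) F)⁻¹ : GL (Fin n) F) : Mt n F)) =
      if (e : GL (Fin n) F) ∈ Z then (Nat.card E : F) • w else 0 := fun e => by
    rw [← Finset.sum_mul]
    show S e * _ = _
    split_ifs with he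
    · rw [h1 e he, smul_mul_assoc, ← mul_assoc, sc _ he, mul_assoc, ← Units.val_mul, mul_inv_cancel,
        Units.val_one, mul_one]
    · rw [h2 e he, zero_mul]
  simp only [h6]
  have h7 : (Finset.univ.filter fun e : E => (e : GL (Fin n) F) ∈ Z).card = Nat.card Z := by
    rw [← Nat.card_congr (subgroupOfEquivOfLe ex.ZE).toEquiv, Nat.card_eq_fintype_card,
      Fintype.card_subtype]
    rfl
  rw [← Finset.sum_filter, Finset.sum_const, h7, ← Nat.cast_smul_eq_nsmul F, smul_comm]

end H62.SimAv2
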