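import Cfsg.Agent.H53.SimXASpec

/-! S3694, tower SIM, chapter XA, slot `BK`. -/

set_option autoImplicit false

namespace H62.SimBK

open Subgroup Cfsg H98 Matrix H0.Sim H53.XA

theorem job : JBK := by
  intro red n F _ _ u q E hq hab
  classical
  obtain ⟨hm, h1, -, -⟩ := red n F u q E hq hab
  have hF : u = true → Fintype.card F = q ^ 2 := fun h => by
    have := hq; rw [Fq, h] at this; simpa using this
  have ipm : ∀ a ∈ Sp E, ∀ b ∈ Sp E, Ip u q a → Ip u q b → Ip u q (a * b) :=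
    fun a ha b hb h k => ⟨by
      rw [mul_assoc, ← mul_assoc b, ← (hm a ha b hb).2, mul_assoc, k.sq, ← mul_assoc, h.sq],
      fun hu => by rw [ad_mul (hF hu), h.fx hu, k.fx hu, (hm a ha b hb).2]⟩
  have p1 : ∀ f ∈ Bl u q E, ∀ f' ∈ Bl u q E, f ≠ f' → f * f' = 0 := fun f hf f' hf' hne => by
    have hc := hm f hf.1 f' hf'.1
    have hi := ipm f hf.1 f' hf'.1 hf.2.1 hf'.2.1
    rcases hf.2.2.2 _ hc.1 hi (by rw [hc.2, mul_assoc, hf.2.1.sq]) with e | e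
    · exact e
    rcases hf'.2.2.2 _ hc.1 hi (by rw [mul_assoc, hf'.2.1.sq]) with e' | e'
    · exact e'
    exact absurd (e.symm.trans e') hne
  have p2 : ∀ e ∈ Sp E, Ip u q e → e ≠ 0 → ∃ f ∈ Bl u q E, f * e = f ∧ e * f = f := by
    intro e he hi h0
    obtain ⟨f, ⟨f1, f2, f3, f4⟩, hmin⟩ := Set.exists_min_image
      {f : Mt n F | f ∈ Sp E ∧ Ip u q f ∧ f ≠ 0 ∧ f * e = f}
      (fun f => {d : Mt n F | d * f = d}.ncard) (Set.toFinite _) ⟨e, he, hi, h0, hi.sq⟩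
    refine ⟨f, ⟨f1, f2, f3, fun d d1 d2 d3 => ?_⟩, f4, by rw [← (hm f f1 e he).2, f4]⟩
    by_cases d0 : d = 0
    · exact .inl d0
    have h3 := hmin d ⟨d1, d2, d0, by rw [← d3, mul_assoc, f4]⟩
    have h4 : {x : Mt n F | x * d = x} = {x : Mt n F | x * f = x} :=
      Set.eq_of_subset_of_ncard_le (fun x (hx : x * d = x) => show x * f = x by
        rw [← hx, mul_assoc, d3]) h3
    have h5 : f * d = f := (h4.ge (show f * f = f from f2.sq) :)
    exact .inr (by rw [← d3, ← (hm f f1 d d1).2, h5])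
  have p3 : ∀ 𝒮 : Finset (Mt n F), ↑𝒮 ⊆ Bl u q E → (∑ f ∈ 𝒮, f) ∈ Sp E ∧ Ip u q (∑ f ∈ 𝒮, f) ∧
      ∀ f ∈ Bl u q E, f * (∑ f ∈ 𝒮, f) = if f ∈ 𝒮 then f else 0 := fun 𝒮 hS => by
    have k : ∀ f ∈ Bl u q E, f * (∑ f ∈ 𝒮, f) = if f ∈ 𝒮 then f else 0 := fun f hf => by
      rw [Finset.mul_sum]
      split_ifs with h
      · rw [Finset.sum_eq_single_of_mem f h fun g hg hne => p1 f hf g (hS hg) hne.symm, hf.2.1.sq]
      · exact Finset.sum_eq_zero fun g hg => p1 f hf g (hS hg) fun e => h (e ▸ hg)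
    refine ⟨Submodule.sum_mem _ fun f hf => (hS hf).1, ⟨?_, fun hu => ?_⟩, k⟩
    · rw [Finset.sum_mul]
      exact Finset.sum_congr rfl fun f hf => by rw [k f (hS hf), if_pos hf]
    · exact Finset.sum_induction (fun f => f) (fun m => ad q m = m)
        (fun a b ha hb => by rw [ad_add (hF hu), ha, hb]) (ad_zero (hF hu))
        fun f hf => (hS hf).2.1.fx hu
  refine ⟨p1, p2, fun 𝒮 hS => by convert p3 𝒮 hS, (Set.toFinite (Bl u q E)).toFinset, by simp, ?_⟩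
  obtain ⟨a, b, c⟩ := p3 (Set.toFinite (Bl u q E)).toFinset (by simp)
  by_contra hne
  obtain ⟨f, hf, h2, -⟩ := p2 _ (Submodule.sub_mem _ h1 a)
    ⟨by rw [mul_sub, sub_mul, sub_mul, b.sq]; simp,
      fun hu => by rw [ad_sub (hF hu), ad_one (hF hu), b.fx hu]⟩ (sub_ne_zero.2 (Ne.symm hne))
  rw [mul_sub, mul_one, c f hf, if_pos (by simpa using hf), sub_self] at h2
  exact hf.2.2.1 h2.symm

end H62.SimBK
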