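import Cfsg.Agent.H62.C3SLMain

set_option autoImplicit false

/-! Matrix versions: normalisers of extension fields in `SL_n(F)` and `GL_n(F)`. -/

namespace H62

open Module Matrix Cfsg Cfsg.Geo

universe u

theorem exists_not_normK {F K₀ K V : Type*} [Field F] [Field K₀] [Field K] [Algebra F K₀]
    [Algebra F K] [AddCommGroup V] [Module F V] [Module K V] [IsScalarTower F K V] [Module K₀ V]
    [IsScalarTower F K₀ V] [FiniteDimensional F V] [FiniteDimensional F K₀]
    (h1 : ∀ k₀ : K₀, ∃ k : K, ∀ v : V, k₀ • v = k • v)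
    (h2 : ∃ k : K, ∀ k₀ : K₀, ¬ ∀ v : V, k₀ • v = k • v) (h3 : finrank F K < finrank F V) :
    ∃ e : V ≃ₗ[F] V, (∀ (k₀ : K₀) v, e (k₀ • v) = k₀ • e v) ∧
      LinearMap.det (e : V →ₗ[F] V) = 1 ∧ ¬ NormK K e := by
  have : Module.Finite K₀ V := Module.Finite.of_restrictScalars_finite F K₀ V
  obtain ⟨u, -, hu⟩ := exists_mem_notMem (W := ⊤) (Z := (⊥ : Submodule F V)) (by simp; omega)
  have hu0 : u ≠ 0 := by simpa using hu
  obtain ⟨x, -, hx⟩ := exists_mem_notMem (W := ⊤) (Z := kl F K u) (by simpa [finrank_kl hu0])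
  let Z : Submodule K₀ V :=
    { carrier := kl F K u
      add_mem' := (kl F K u).add_mem
      zero_mem' := (kl F K u).zero_mem
      smul_mem' := fun k₀ v hv => by
        obtain ⟨k, hk⟩ := h1 k₀
        rw [hk]; exact (K ∙ u).smul_mem k hv }
  obtain ⟨φ, p1, p0⟩ := exists_dual_eq_one (W := Z) hx
  have q0 : ∀ k : K, φ (k • u) = 0 := fun k => p0 _ (smul_mem_kl (F := F) k u)
  have q1 : φ u = 0 := by simpa using q0 1
  obtain ⟨e, he, hd⟩ := exists_kdil (F := F) (φ := φ) (w := u) (by simp [q1])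
  refine ⟨e, fun k v => by simp [he, smul_smul], by simpa [q1] using hd,
    fun hn => ?_⟩
  obtain ⟨k, hk⟩ := h2
  obtain ⟨k', hk'⟩ := hn k
  have h4 := hk' u
  rw [he, he, q1, q0, zero_smul, add_zero, add_zero] at h4
  obtain rfl : k = k' := smul_left_injective K hu0 h4
  have h5 := hk' x
  rw [he, he, p1, one_smul, smul_add, add_right_inj] at h5
  obtain ⟨k₁, hk₁⟩ := h1 (φ (k • x))
  obtain rfl : k₁ = k := smul_left_injective K hu0 ((hk₁ u).symm.trans h5)
  exact hk _ hk₁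

variable {ι : Type} [Fintype ι] [DecidableEq ι] {F : Type u} [Field F]

theorem exists_field_model [Finite F] [Nonempty ι] {r : ℕ} {K : Subalgebra F (Matrix ι ι F)}
    (hK : IsFieldSubalgebra r K) :
    ∃ (K' : Type u) (_ : Field K') (_ : Algebra F K') (_ : Module K' (ι → F))
      (_ : IsScalarTower F K' (ι → F)) (_ : Finite K'), finrank F K' = r ∧
      (∀ A, A ∈ K ↔ ∃ k : K', ∀ v, A *ᵥ v = k • v) ∧ ∀ k : K', ∃ A ∈ K, ∀ v, A *ᵥ v = k • v := by
  have hf : IsField K := ⟨exists_pair_ne K, fun x y => Subtype.ext (hK.comm x x.2 y y.2),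
    fun {x} hx => by
      obtain ⟨y, hy, h⟩ := hK.inv x x.2 (by simpa using hx)
      exact ⟨⟨y, hy⟩, Subtype.ext h⟩⟩
  let φ : K →ₐ[F] Module.End F (ι → F) := (Matrix.toLinAlgEquiv' (R := F) (n := ι)).toAlgHom.comp K.val
  letI : Module K (ι → F) := Module.compHom (ι → F) φ.toRingHom
  have hs : ∀ (k : K) (v : ι → F), k • v = (k : Matrix ι ι F) *ᵥ v := fun k v => rfl
  refine ⟨K, hf.toField, K.algebra, this, ⟨fun c k v => ?_⟩, inferInstance, hK.finrank_eq,
    fun A => ⟨fun h => ⟨⟨A, h⟩, fun v => rfl⟩, ?_⟩, fun k => ⟨k, k.2, fun v => rfl⟩⟩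
  · exact Matrix.smul_mulVec c (k : Matrix ι ι F) v
  · rintro ⟨k, hk⟩
    have : A = k := Matrix.toLin'.injective (LinearMap.ext hk)
    exact this ▸ k.2

theorem mem_subalgebraNormalizer_iff [Finite F] {K : Subalgebra F (Matrix ι ι F)} {K' : Type*}
    [Field K'] [Module K' (ι → F)] (h1 : ∀ A, A ∈ K ↔ ∃ k : K', ∀ v, A *ᵥ v = k • v)
    (h2 : ∀ k : K', ∃ A ∈ K, ∀ v, A *ᵥ v = k • v) (g : GL ι F) :
    g ∈ subalgebraNormalizer K ↔ NormK K' (toLE g) := by
  have e : ∀ (A : Matrix ι ι F) v, ((g : Matrix ι ι F) * A * ((g⁻¹ : GL ι F) : Matrix ι ι F)) *ᵥ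
      (toLE g v) = toLE g (A *ᵥ v) := fun A v => by
    rw [toLE_apply, toLE_apply, mulVec_mulVec, mul_assoc, ← Units.val_mul, inv_mul_cancel,
      Units.val_one, mul_one, mulVec_mulVec]
  constructor
  · intro h k
    obtain ⟨A, hA, hAx⟩ := h2 k
    obtain ⟨k', hk'⟩ := (h1 _).1 ((h A).1 hA)
    exact ⟨k', fun v => by rw [← hk', e, hAx]⟩
  · intro h
    let c : Matrix ι ι F → Matrix ι ι F := fun A =>
      (g : Matrix ι ι F) * A * ((g⁻¹ : GL ι F) : Matrix ι ι F)
    have hc : Function.Injective c := fun A B hAB => by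
      rwa [Units.mul_left_inj, Units.mul_right_inj] at hAB
    have hm : Set.MapsTo c K K := fun A hA => by
      obtain ⟨k, hk⟩ := (h1 A).1 hA
      obtain ⟨k', hk'⟩ := h k
      refine (h1 _).2 ⟨k', fun v => ?_⟩
      obtain ⟨v, rfl⟩ := (toLE g).surjective v
      rw [e, hk, hk']
    refine fun A => ⟨fun hA => hm hA, fun hA => ?_⟩
    obtain ⟨B, hB, hBA⟩ := (((Set.toFinite _).injOn_iff_bijOn_of_mapsTo hm).1 hc.injOn).surjOn hA
    exact hc hBA ▸ hB

theorem exists_not_mem_bot {K : Type*} [Field K] [Algebra F K] {V : Type*} [AddCommGroup V]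
    [Module F V] [Module K V] [IsScalarTower F K V] [Nontrivial V] (h : 1 < finrank F K) :
    ∃ k : K, ∀ k₀ : F, ¬ ∀ v : V, k₀ • v = k • v := by
  have : FiniteDimensional F K := Module.finite_of_finrank_pos (by omega)
  obtain ⟨k, -, hk⟩ := exists_mem_notMem (W := ⊤) (Z := F ∙ (1 : K)) (by
    rw [finrank_span_singleton one_ne_zero]; simpa)
  obtain ⟨v, hv⟩ := exists_ne (0 : V)
  refine ⟨k, fun c hc => hk (Submodule.mem_span_singleton.2 ⟨c, smul_left_injective K hv ?_⟩)⟩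
  simp [hc v]

theorem exists_sl_not_mem_normalizer [Finite F] {r : ℕ} (hr : 1 < r) (hlt : r < Fintype.card ι)
    {K : Subalgebra F (Matrix ι ι F)} (hK : IsFieldSubalgebra r K) :
    ∃ g ∈ specialLinear ι F, g ∉ subalgebraNormalizer K := by
  have : Nonempty ι := Fintype.card_pos_iff.1 (by omega)
  obtain ⟨K', _, _, _, _, _, h0, h1, h2⟩ := exists_field_model hK
  obtain ⟨e, -, h4, h5⟩ := exists_not_normK (F := F) (K₀ := F) (K := K') (V := ι → F)
    (fun c => ⟨algebraMap F K' c, fun v => by simp⟩) (exists_not_mem_bot (by omega))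
    (by simpa [h0])
  obtain ⟨g, rfl⟩ := toLE.surjective e
  exact ⟨g, (mem_specialLinear_iff g).2 h4, by rwa [mem_subalgebraNormalizer_iff h1 h2]⟩

theorem isMaximalIn_sl_field [Finite F] {r : ℕ} (hr : r.Prime) (hlt : r < Fintype.card ι)
    {K : Subalgebra F (Matrix ι ι F)} (hK : IsFieldSubalgebra r K) :
    IsMaximalIn (specialLinear ι F) (subalgebraNormalizer K ⊓ specialLinear ι F) := by
  have : Nonempty ι := Fintype.card_pos_iff.1 (by omega)
  obtain ⟨g, hg, hg'⟩ := exists_sl_not_mem_normalizer hr.one_lt hlt hK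
  obtain ⟨K', _, _, _, _, _, h0, h1, h2⟩ := exists_field_model hK
  refine isMaximalIn_of_toLE (NormK K') (fun e => LinearMap.det (e : (ι → F) →ₗ[F] (ι → F)) = 1)
    mem_specialLinear_iff
    (fun g => and_congr (mem_subalgebraNormalizer_iff h1 h2 g) (mem_specialLinear_iff g))
    ⟨toLE g, (mem_specialLinear_iff g).1 hg, by rwa [← mem_subalgebraNormalizer_iff h1 h2]⟩
    fun M hM _ g hg hns => sl_field_maximal (h0 ▸ hr) (by simpa [h0]) hM hg hns

theorem isCoatom_field [Finite F] {r : ℕ} (hr : r.Prime) (hlt : r < Fintype.card ι)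
    {K : Subalgebra F (Matrix ι ι F)} (hK : IsFieldSubalgebra r K) :
    IsCoatom (subalgebraNormalizer K) := by
  have : Nonempty ι := Fintype.card_pos_iff.1 (by omega)
  obtain ⟨g, hg, hg'⟩ := exists_sl_not_mem_normalizer hr.one_lt hlt hK
  obtain ⟨K', _, _, _, _, _, h0, h1, h2⟩ := exists_field_model hK
  refine ⟨fun h => hg' (h ▸ Subgroup.mem_top g), fun M hM => eq_top_iff.2 fun a _ => ?_⟩
  obtain ⟨k, hk, hk'⟩ := SetLike.exists_of_lt hM
  have h3 : ∀ e, NormK K' e → e ∈ M.map toLE.toMonoidHom := fun e he => by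
    obtain ⟨b, rfl⟩ := toLE.surjective e
    exact ⟨b, hM.le ((mem_subalgebraNormalizer_iff h1 h2 b).2 he), rfl⟩
  have : Module.Finite K' (ι → F) := Module.Finite.of_restrictScalars_finite F K' _
  obtain ⟨v, hv⟩ := exists_ne (0 : ι → F)
  obtain ⟨φ, hφ⟩ := exists_dual_of_ne_zero (F := K') hv
  have hdet := (LinearEquiv.isUnit_det' (toLE a)).ne_zero
  obtain ⟨l, hl⟩ := FiniteField.norm_surjective F K'
    (LinearMap.det (toLE a : (ι → F) →ₗ[F] (ι → F)))
  obtain ⟨d, hd, hd'⟩ := exists_kdil (F := F) (φ := (l - 1) • φ) (w := v) (by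
    simp only [LinearMap.smul_apply, hφ, smul_eq_mul, mul_one, add_sub_cancel]
    rintro rfl; simp at hl; exact hdet hl.symm)
  have h4 : d ∈ M.map toLE.toMonoidHom := h3 d (NormK.of_lin fun k v => by
    simp [hd, smul_smul, mul_left_comm])
  have h5 := sl_field_maximal (h0 ▸ hr) (by simpa [h0]) (fun e he _ => h3 e he)
    (g := toLE k) ⟨k, hk, rfl⟩ (by rwa [← mem_subalgebraNormalizer_iff h1 h2]) (toLE a * d⁻¹) (by
      simp only [LinearMap.smul_apply, hφ, smul_eq_mul, mul_one, add_sub_cancel, hl] at hd'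
      rw [← LinearEquiv.coe_det, map_mul, map_inv, Units.val_mul, Units.val_inv_eq_inv_val,
        LinearEquiv.coe_det, LinearEquiv.coe_det, hd', mul_inv_cancel₀ hdet])
  obtain ⟨b, hb, hba⟩ := (Subgroup.mul_mem_cancel_right _ (Subgroup.inv_mem _ h4)).1 h5
  exact toLE.injective hba ▸ hb

end H62
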