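import Cfsg.Agent.H62.C3SL

set_option autoImplicit false

/-! The normaliser of an extension field of prime degree is maximal in `SL(V)`: main theorem. -/

namespace H62

open Module

variable {F K V : Type*} [Field F] [Field K] [Algebra F K] [AddCommGroup V] [Module F V]
  [Module K V] [IsScalarTower F K V] {M : Subgroup (V ≃ₗ[F] V)}

theorem exists_omega (hF : ∀ a : F, a ≠ 0 → a = 1) (h2 : finrank F K = 2) :
    ∃ ω : K, ω * ω = ω + 1 ∧ (∀ k : K, k = 0 ∨ k = 1 ∨ k = ω ∨ k = ω + 1) ∧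
      ∃ c : Dual F K, c 1 = 1 ∧ c ω = 0 := by
  have : FiniteDimensional F K := Module.finite_of_finrank_pos (by omega)
  obtain ⟨ω, -, hω⟩ := exists_mem_notMem (W := ⊤) (Z := F ∙ (1 : K)) (by
    rw [finrank_span_singleton one_ne_zero]; simp [h2])
  have hs : Submodule.span F {(1 : K), ω} = ⊤ := by
    have := finrank_span_eq_card (linearIndependent_pair_of_notMem one_ne_zero hω)
    rw [Matrix.range_cons_cons_empty] at this
    exact Submodule.eq_top_of_finrank_eq (by rw [this, h2]; simp)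
  have hF' : ∀ a : F, a = 0 ∨ a = 1 := fun a => or_iff_not_imp_left.2 (hF a)
  have hK : ∀ k : K, k = 0 ∨ k = 1 ∨ k = ω ∨ k = ω + 1 := fun k => by
    obtain ⟨s, t, rfl⟩ := Submodule.mem_span_pair.1 (hs ▸ Submodule.mem_top (x := k))
    rcases hF' s with rfl | rfl <;> rcases hF' t with rfl | rfl <;> simp [add_comm]
  have h0 : ω ≠ 0 := by rintro rfl; simp at hω
  have h1 : ω ≠ 1 := by rintro rfl; simp at hω
  have hF2 : (1 : F) + 1 = 0 := by
    by_contra h0; simpa using hF _ h0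
  have hK2 : (1 : K) + 1 = 0 := by simpa using congrArg (algebraMap F K) hF2
  obtain ⟨c, hc1, hc2⟩ := exists_dual_pair (notMem_span_symm one_ne_zero hω)
  refine ⟨ω, ?_, hK, c, hc1, hc2⟩
  rcases hK (ω * ω) with h | h | h | h
  · simp [h0] at h
  · refine absurd (sub_eq_zero.1 (pow_eq_zero_iff two_ne_zero |>.1 ?_)) h1
    linear_combination h + (1 - ω) * hK2
  · simp [h0, h1] at h
  · exact h

variable [FiniteDimensional F V] [Finite K]

theorem hasKSL_of_normK (hM : ∀ e, NormK K e → LinearMap.det (e : V →ₗ[F] V) = 1 → e ∈ M) :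
    HasKSL K M := fun φ w h => by
  have : Module.Finite K V := Module.Finite.of_restrictScalars_finite F K V
  obtain ⟨e, he, hd⟩ := exists_kdil (F := F) (φ := φ) (w := w) (by
    intro h0; simp [h0] at h)
  exact ⟨e, hM e (NormK.of_lin fun k v => by simp [he, smul_smul]) (hd.trans h), he⟩

theorem sl_field_maximal (hr : (finrank F K).Prime) (h2 : finrank F K < finrank F V)
    (hM : ∀ e, NormK K e → LinearMap.det (e : V →ₗ[F] V) = 1 → e ∈ M) {g : V ≃ₗ[F] V}
    (hg : g ∈ M) (hns : ¬ NormK K g) (e : V ≃ₗ[F] V) (he : LinearMap.det (e : V →ₗ[F] V) = 1) :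
    e ∈ M := by
  have : Module.Finite K V := Module.Finite.of_restrictScalars_finite F K V
  have hK := hasKSL_of_normK hM
  have hr1 := hr.one_lt
  have hm : 2 ≤ finrank K V := by
    rw [← finrank_mul_finrank F K V] at h2
    by_contra hc
    have : finrank F K * finrank K V ≤ finrank F K * 1 := Nat.mul_le_mul_left _ (by omega)
    omega
  have h3 : ∀ w : V, ∃ u, u ∉ K ∙ w := fun w => by
    obtain ⟨u, -, hu⟩ := exists_mem_notMem (W := ⊤) (Z := K ∙ w) (by
      have := finrank_span_list_le (F := K) [w]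
      rw [show {x | x ∈ [w]} = ({w} : Set V) by ext; simp] at this
      simp at this ⊢; omega)
    exact ⟨u, hu⟩
  refine mem_of_det_eq_one (fun η u hu => ?_) e he
  suffices ∃ (c : Dual F K) (φ : Dual K V) (w : V), c ≠ 0 ∧ φ ≠ 0 ∧ w ≠ 0 ∧ φ w = 0 ∧
      HasTv M (c ∘ₗ φ.restrictScalars F) w by
    obtain ⟨c, φ, w, a1, a2, a3, a4, a5⟩ := this
    exact hK.forall_hasTv hr1 h3 a1 a2 a3 a4 a5 η u hu
  clear hu η u he e
  obtain ⟨g, w, w', h⟩ : ∃ g w w', MaxPair K M (· ≠ 0) g w w' := by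
    obtain ⟨w, hw, hne⟩ : ∃ w, w ≠ 0 ∧ (kl F K w).map (g : V →ₗ[F] V) ≠ kl F K (g w) := by
      by_contra! hc
      obtain ⟨v, hv⟩ := h3 0
      obtain ⟨u, hu⟩ := h3 v
      exact hns (normK_of_map_kl ⟨u, v, by simpa using hv, hu⟩ hc)
    refine exists_maxPair hg (by simpa using hw) hw hne fun h0 => hw ?_
    have : g w ∈ (⊥ : Submodule F V) :=
      h0 ▸ ⟨Submodule.mem_map_of_mem (self_mem_kl w), self_mem_kl _⟩
    simpa using this
  have hw := h.left
  have hw' := h.right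
  have tv : ∀ (v : V) (L : Submodule F V) (φ : Dual K V), φ v = 0 →
      ∃ k ∈ M, ∀ z ∈ L, k z = z + φ z • v := fun v L φ h0 => by
    obtain ⟨k, hk, hx⟩ := hK.tv h0
    exact ⟨k, hk, fun z _ => hx z⟩
  obtain ⟨x, hx, hx', hxz⟩ := h.exists_hyper hr hw hw' (tv w _)
  obtain ⟨y, hy, hy', hyz⟩ : ∃ y ∈ kl F K w, y ∉ (kl F K w').map (g : V →ₗ[F] V) ∧
      ∀ z ∈ kl F K w, ∃ c : F, z - c • y ∈ (kl F K w').map (g : V →ₗ[F] V) := by
    obtain ⟨_, ⟨y, hy, rfl⟩, hy', hyz⟩ := h.symm.exists_hyper hr hw' hw (tv w' _)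
    refine ⟨y, hy, fun h0 => hy' (by simpa using h0), fun z hz => ?_⟩
    obtain ⟨c, hc⟩ := hyz _ (Submodule.mem_map_of_mem hz)
    exact ⟨c, by simpa using hc⟩
  obtain ⟨δ, ⟨hδ, hδ'⟩, hδ0⟩ := Submodule.exists_mem_ne_zero_of_ne_bot h.pos
  obtain ⟨κ, rfl⟩ := mem_kl.1 hδ'
  replace hδ : κ • w ∈ (kl F K w').map (g : V →ₗ[F] V) := hδ
  have hκ : κ ≠ 0 := by rintro rfl; simp at hδ0
  have k0 : ∀ φ : Dual K V, φ w = 0 → ∀ z ∈ kl F K w, φ z = 0 := fun φ h0 z hz => by
    obtain ⟨b, rfl⟩ := mem_kl.1 hz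
    simp [h0]
  obtain ⟨φ₀, p1, p0⟩ := exists_dual_pair (F := K) hx'
  have hφ₀ : φ₀ ≠ 0 := by rintro rfl; simp at p1
  have two : finrank K V = 2 → ∀ w : V, w ≠ 0 → ∀ u v : V, u ∉ K ∙ w →
      ∃ a : K, v - a • u ∈ K ∙ w := fun h4 w hw u v hu => by
    have := finrank_span_eq_card (linearIndependent_pair_of_notMem hw hu)
    rw [Matrix.range_cons_cons_empty] at this
    have h5 := Submodule.eq_top_of_finrank_eq (S := Submodule.span K {w, u})
      (by rw [this, h4]; simp)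
    obtain ⟨s, t, rfl⟩ := Submodule.mem_span_pair.1 (h5 ▸ Submodule.mem_top (x := v))
    exact ⟨t, by simpa using Submodule.smul_mem _ s (Submodule.mem_span_singleton_self w)⟩
  by_cases hsm : finrank K V = 2 ∧ finrank F K = 2 ∧ ∀ a : F, a ≠ 0 → a = 1
  · obtain ⟨h4, h5, hF⟩ := hsm
    obtain ⟨ω, hω, hK4, c, c1, c2⟩ := exists_omega hF h5
    have hF' : ∀ a : F, a = 0 ∨ a = 1 := fun a => or_iff_not_imp_left.2 (hF a)
    set L := (kl F K w').map (g : V →ₗ[F] V)
    generalize hδe : κ • w = δ at hδ hδ0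
    have hkl : ∀ z ∈ kl F K w, ∃ k : K, k • δ = z := fun z hz => by
      obtain ⟨b, rfl⟩ := mem_kl.1 hz
      exact ⟨b / κ, by rw [← hδe, smul_smul, div_mul_cancel₀ _ hκ]⟩
    have hωδ : ω • δ ∉ L := fun h0 => hy' (by
      obtain ⟨k, rfl⟩ := hkl y hy
      rcases hK4 k with rfl | rfl | rfl | rfl <;> simp [h0, hδ, add_smul, L.add_mem])
    have hL : ∀ z ∈ L, z = 0 ∨ z = δ ∨ z = x ∨ z = δ + x := fun z hz => by
      obtain ⟨s, hs⟩ := hxz z hz
      obtain ⟨k, hk⟩ := hkl _ hs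
      have h6 : k • δ ∈ L := hk ▸ L.sub_mem hz (L.smul_mem _ hx)
      rw [eq_add_of_sub_eq hk.symm]
      rcases hK4 k with rfl | rfl | rfl | rfl
      · rcases hF' s with rfl | rfl <;> simp
      · rcases hF' s with rfl | rfl <;> simp
      · exact absurd h6 hωδ
      · exact absurd (by rwa [add_smul, one_smul, L.add_mem_iff_left hδ] at h6) hωδ
    have hxδ : x ∉ K ∙ δ := fun h0 => hx' (by
      obtain ⟨b, rfl⟩ := Submodule.mem_span_singleton.1 h0
      rw [← hδe, smul_smul]; exact smul_mem_kl _ _)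
    have p0' : φ₀ δ = 0 := by simp [← hδe, p0]
    obtain ⟨χ, q1, q0⟩ := exists_dual_pair (notMem_span_symm hδ0 hxδ)
    have hω0 : c ω ≠ c 1 := by simp [c1, c2]
    have hω1 : ∀ z ∈ L, φ₀ z ≠ ω := fun z hz h0 => by
      rcases hL z hz with rfl | rfl | rfl | rfl
      · simp [← h0] at hω
      · simp [← h0, p0'] at hω
      · exact hω0 (by rw [← h0, p1])
      · exact hω0 (by simp [← h0, p1, p0'])
    obtain ⟨f, f1, f2, f3, f4, -, f6⟩ := hK.exists_conj h.mem hωδ hx (by rintro rfl; simp at p1)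
    obtain ⟨u, hu, hux⟩ := f1 1
    have f7 := f6 (two h4 w' hw')
    have hF2 : (1 : F) + 1 = 0 := by
      by_contra h0; simpa using hF _ h0
    have hK2 : (1 : K) + 1 = 0 := by simpa using congrArg (algebraMap F K) hF2
    refine ⟨c, χ + φ₀, δ + x, by rintro rfl; simp at c1, fun h0 => ?_, fun h0 => ?_,
      by simp [q1, q0, p1, p0', hK2], HasKSL.exists_hasTv_small hF hω hK4
        (fun e he => hM e (NormK.of_lin he) (hF _ ?_)) q1 q0 p0' p1 (fun v => ?_) c1 c2 hu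
        (by simp [hux, f3 δ hδ]) (by simp [hux, f3 x hx]) (by simp [hux, f4]) ?_⟩
    · simpa [q1, p0'] using LinearMap.congr_fun h0 δ
    · simpa [q1, q0] using congrArg χ h0
    · exact (LinearEquiv.isUnit_det' e).ne_zero
    · obtain ⟨a, ha⟩ := two h4 δ hδ0 x v hxδ
      obtain ⟨b, hb⟩ := Submodule.mem_span_singleton.1 ha
      rw [eq_add_of_sub_eq hb.symm]
      simp [q1, q0, p1, p0']
    · rw [hux, one_smul]
      rcases hL _ (f2 (ω • x)) with h6 | h6 | h6 | h6
      · exact absurd (by simp [p1]) (hω1 _ (f7 _ h6))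
      · exact Or.inl (by rw [h6])
      · exact absurd (by simp [p1, p0']) (hω1 _ (f7 (ω • x - ω • δ) (by simp [h6, f4])))
      · exact Or.inr (by rw [h6])
  obtain ⟨f, f1, f2, f3, f4, f5, -⟩ := hK.exists_conj h.mem hy' hδ hδ0
  obtain ⟨c₀, c1, c0⟩ := exists_dual_eq_one hy'
  obtain ⟨ξ₀, x1, x0⟩ := exists_dual_eq_one hx'
  let c : Dual F K := c₀ ∘ₗ (LinearMap.toSpanSingleton K V w).restrictScalars F
  have hc : c ≠ 0 := fun h0 => by
    obtain ⟨b, rfl⟩ := mem_kl.1 hy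
    simpa [c, c1] using LinearMap.congr_fun h0 b
  have f6 : ∀ μ : K, f (μ • w) = c μ • κ • w := fun μ => by
    obtain ⟨s, hs⟩ := hyz _ (smul_mem_kl μ w)
    have h4 : s = c μ := (sub_eq_zero.1 (by simpa [c, c1] using c0 _ hs)).symm
    simpa [f4, h4, sub_eq_zero] using f3 _ hs
  have f7 : ∀ φ : Dual K V, φ w = 0 → ∀ z, φ (f z) = ξ₀ (f z) • φ x := fun φ h0 z => by
    obtain ⟨s, hs⟩ := hxz _ (f2 z)
    have h4 : s = ξ₀ (f z) := (sub_eq_zero.1 (by simpa [x1] using x0 _ hs)).symm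
    simpa [h4, sub_eq_zero] using k0 φ h0 _ hs
  have key : ∀ (a : F) (φ : Dual K V), φ w = 0 → ∃ e ∈ M, ∀ z, e z = z +
      ((φ z - (a * ξ₀ (f z)) • φ x) + (a * c (φ z - (a * ξ₀ (f z)) • φ x)) • κ) • w := by
    intro a φ h0
    obtain ⟨u, hu, hux⟩ := f1 a
    obtain ⟨t, ht, htx⟩ := hK.tv h0
    refine ⟨u * t * u⁻¹, M.mul_mem (M.mul_mem hu ht) (M.inv_mem hu), fun z => ?_⟩
    obtain ⟨z, rfl⟩ := u.surjective z
    have h4 : f (u z) = f z := by simp [hux, f3 _ (f2 z)]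
    have h5 : φ (u z) - (a * ξ₀ (f z)) • φ x = φ z := by simp [hux, f7 φ h0, mul_smul]
    rw [LinearEquiv.mul_apply, LinearEquiv.mul_apply, LinearEquiv.coe_inv,
      LinearEquiv.symm_apply_apply, h4, h5, htx, map_add, hux (_ • w), f6, add_smul, smul_smul a,
      smul_assoc]
  by_cases h4 : finrank K V = 2
  · have hV : ∀ z, z - φ₀ z • x ∈ kl F K w := fun z => by
      obtain ⟨a, ha⟩ := two h4 w hw x z hx'
      have : a = φ₀ z := (sub_eq_zero.1 (by simpa [p1] using k0 φ₀ p0 _ ha)).symm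
      exact this ▸ ha
    let ξ : Dual F K := ξ₀ ∘ₗ f ∘ₗ (LinearMap.toSpanSingleton K V x).restrictScalars F
    have hξ : ∀ z, ξ₀ (f z) = ξ (φ₀ z) := fun z => by
      obtain ⟨b, hb⟩ := mem_kl.1 (hV z)
      have := congrArg (fun v => ξ₀ (f v)) hb
      simp only [f6, map_smul, x0 _ (smul_mem_kl κ w), smul_zero, map_sub] at this
      exact (sub_eq_zero.1 this.symm)
    have := bimodule_eq_top (R := hK.sub hr1 p0 hw) (fun f hf b => hK.comp_mem hr1 p0 p1 b f hf)
      (hK.tv p0) hc (ξ := ξ) (fun h0 => by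
        obtain ⟨z, hz⟩ := f5 x hx
        simpa [hz, x1, h0] using hξ z) hκ (by
        by_contra! hc
        exact hsm ⟨h4, by have := hr.two_le; omega, hc.2⟩) fun a ha l => by
      obtain ⟨e, he, hx⟩ := key a (l • φ₀) (by simp [p0])
      let f' : K →ₗ[F] K := (c ∘ₗ LinearMap.mul F K l).smulRight κ - ξ.smulRight (l + (a * c l) • κ)
      have h5 : LinearMap.mul F K l + algebraMap F K a • f' ∈ hK.sub hr1 p0 hw :=
        ⟨e, he, fun z => by
          rw [hx, hξ]
          congr 2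
          simp only [f', LinearMap.smul_apply, smul_eq_mul, p1, mul_one, map_sub, map_smul,
            LinearMap.add_apply, LinearMap.mul_apply', LinearMap.sub_apply, LinearMap.comp_apply,
            LinearMap.smulRight_apply, algebraMap_smul]
          module⟩
      rw [Submodule.add_mem_iff_right _ (show LinearMap.mul F K l ∈ hK.sub hr1 p0 hw from
        hK.tv (φ := l • φ₀) (by simp [p0])), Submodule.smul_mem_iff _ (by simpa)] at h5
      exact ⟨f', h5, fun μ => rfl⟩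
    obtain ⟨e, he, hx⟩ : c.smulRight 1 ∈ hK.sub hr1 p0 hw := this ▸ Submodule.mem_top
    exact ⟨c, φ₀, w, hc, hφ₀, hw, p0, e, he, fun z => by simp [hx]⟩
  · obtain ⟨v, -, hv⟩ := exists_mem_notMem (W := ⊤) (Z := Submodule.span K {x, w}) (by
      have := finrank_span_list_le (F := K) [x, w]
      rw [show {z | z ∈ [x, w]} = ({x, w} : Set V) by ext; simp] at this
      simp at this ⊢; omega)
    obtain ⟨φ, q1, q0⟩ := exists_dual_eq_one hv
    have q2 := q0 x (Submodule.subset_span (by simp))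
    have q3 := q0 w (Submodule.subset_span (by simp))
    obtain ⟨e, he, hx⟩ := key 1 φ q3
    have h5 : LinearMap.id + c.smulRight κ ∈ addA M q3 := ⟨e, he, fun z => by simp [hx, q2]⟩
    obtain ⟨e, he, hx⟩ := (AddSubgroup.add_mem_cancel_left _
      (show LinearMap.id ∈ addA M q3 from hK.tv q3)).1 h5
    exact ⟨c, φ, κ • w, hc, by rintro rfl; simp at q1, hδ0, by simp [q3], e, he,
      fun z => by simp [hx]⟩

end H62
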