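import Cfsg.Agent.H62.SpStabMat
import Cfsg.Agent.H62.Pair2

set_option autoImplicit false

/-! The stabiliser of a pair of complementary totally singular subspaces is maximal in `Sp(V)`. -/

namespace H62

open Module Cfsg Cfsg.Geo

variable {F V : Type*} [Field F] [AddCommGroup V] [Module F V] {B : LinearMap.BilinForm F V}
  {M : Subgroup (V ≃ₗ[F] V)}

/-- `M` contains the short root element attached to `a, b`. -/
def HasRho (M : Subgroup (V ≃ₗ[F] V)) (B : LinearMap.BilinForm F V) (a b : V) : Prop :=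
  ∃ e ∈ M, ∀ x, e x = x + B x a • b + B x b • a

theorem HasRho.symm {a b : V} (h : HasRho M B a b) : HasRho M B b a := by
  obtain ⟨e, he, hx⟩ := h
  exact ⟨e, he, fun x => by rw [hx]; abel⟩

theorem HasRho.conj {a b : V} {g : V ≃ₗ[F] V} (hg : g ∈ M) (hB : ∀ x y, B (g x) (g y) = B x y)
    (h : HasRho M B a b) : HasRho M B (g a) (g b) := by
  obtain ⟨e, he, hx⟩ := h
  refine ⟨g * e * g⁻¹, M.mul_mem (M.mul_mem hg he) (M.inv_mem hg), fun x => ?_⟩
  obtain ⟨x, rfl⟩ := g.surjective x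
  simp [hx, hB]

theorem HasRho.comm (hA : B.IsAlt) {a x y : V} (hx : B x a = 0) (hy : B y a = 0)
    (h1 : HasRho M B a x) (h2 : HasRho M B a y) : HasSp M B a (-2 * B x y) := by
  obtain ⟨e, he, h1⟩ := h1
  obtain ⟨f, hf, h2⟩ := h2
  refine ⟨e * f * (f * e)⁻¹, M.mul_mem (M.mul_mem he hf) (M.inv_mem (M.mul_mem hf he)),
    fun v => ?_⟩
  obtain ⟨v, rfl⟩ := (f * e).surjective v
  have hax : B a x = 0 := by rw [alt_swap hA, hx, neg_zero]
  have hay : B a y = 0 := by rw [alt_swap hA, hy, neg_zero]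
  rw [LinearEquiv.mul_apply, LinearEquiv.coe_inv, LinearEquiv.symm_apply_apply]
  simp only [LinearEquiv.mul_apply, h1, h2, map_add, map_smul, LinearMap.add_apply,
    LinearMap.smul_apply, smul_eq_mul, hx, hy, hax, hay, hA.self_eq_zero, alt_swap hA y x]
  module

variable [FiniteDimensional F V] {D : Fin 2 → Submodule F V} {π : Fin 2 → V →ₗ[F] V}

theorem singPair_of_sp (hB : B.Nondegenerate) (hA : B.IsAlt) (h : IsProj D π)
    (hs : ∀ i, ∀ x ∈ D i, ∀ y ∈ D i, B x y = 0) : SingPair B D π :=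
  ⟨h, hA.isRefl, fun Z y hy => by
    obtain ⟨u, hu, hu'⟩ := H54.exists_ortho_ne_zero hB hA.isRefl Z hy
    exact ⟨u, hu, hu'⟩, hs⟩

theorem SingPair.exists_sp_swap (h : SingPair B D π) (hB : B.Nondegenerate) (hA : B.IsAlt) {m : ℕ}
    (hm : ∀ i, finrank F (D i) = m) : ∃ e : V ≃ₗ[F] V, (∀ x y, B (e x) (e y) = B x y) ∧
      ∀ k, ∀ v ∈ D k, e v ∈ D (Equiv.swap 0 1 k) := by
  obtain ⟨u, w, h1, h2, h3, h4, h5, h6, h7⟩ := h.exists_dual_bases hm
  obtain ⟨e, he, hx⟩ := sp_witt_family hB hA (Sum.elim u w) (Sum.elim w (-u))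
    (h.linearIndependent_sum (by simp) h1 h2 h6 h7)
    (h.linearIndependent_sum (by simp) h2 (fun k => (D 0).neg_mem (h1 k)) h7 h6.neg) (by
      rintro (i | i) (j | j)
      · simp [h.sing 0 _ (h1 i) _ (h1 j), h.sing 1 _ (h2 i) _ (h2 j)]
      · simp [alt_swap hA (w i), h3, eq_comm]
      · simp [alt_swap hA (w i), h3, eq_comm]
      · simp [h.sing 0 _ (h1 i) _ (h1 j), h.sing 1 _ (h2 i) _ (h2 j)])
  refine ⟨e, he, fun k => ?_⟩
  fin_cases k
  · exact map_mem_of_span h4 fun k => by simpa [show e (u k) = w k from hx (.inl k)] using h2 k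
  · exact map_mem_of_span h5 fun k => by simpa [show e (w k) = -u k from hx (.inr k)] using h1 k

theorem sp_pair_maximal (hB : B.Nondegenerate) (hA : B.IsAlt) (h2 : (2 : F) ≠ 0)
    (h : SingPair B D π) {m : ℕ} (hm : ∀ i, finrank F (D i) = m) (h5 : 5 ≤ m)
    (hM : ∀ e : V ≃ₗ[F] V, StabD D e → (∀ x y, B (e x) (e y) = B x y) → e ∈ M)
    {g : V ≃ₗ[F] V} (hg : g ∈ M) (hgB : ∀ x y, B (g x) (g y) = B x y)
    (hns : ¬ StabD D g) (e : V ≃ₗ[F] V) (he : ∀ x y, B (e x) (e y) = B x y) : e ∈ M := by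
  have hρ : ∀ i j, i ≠ j → ∀ u ∈ D i, ∀ w ∈ D j, B u w = 0 → ∃ e ∈ M,
      (∀ x y, B (e x) (e y) = B x y) ∧ ∀ x, e x = x + B x u • w + B x w • u := by
    intro i j hij u hu w hw huw
    obtain ⟨e, he⟩ := exists_rho hA huw
    refine ⟨e, hM e (StabD.of_fix fun k x hx => ?_) (isom_of_rho hA huw he),
      isom_of_rho hA huw he, he⟩
    rw [he]
    by_cases hk : k = i
    · subst hk
      simpa [h.sing k x hx u hu] using (D k).add_mem hx ((D k).smul_mem _ hu)
    · obtain rfl : k = j := by omega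
      simpa [h.sing k x hx w hw] using (D k).add_mem hx ((D k).smul_mem _ hw)
  have key : ∀ a b, B b a = 0 → HasRho M B a b → π 0 b ∉ F ∙ π 0 a → π 1 b ∉ F ∙ π 1 a →
      FullSp M B a := by
    intro a b hab hr h0 h1 c
    obtain ⟨u, hu, u', hu', w, hw, w', hw', e1, e2, e3, e4, e5, e6, e7, e8, e9, e10⟩ :=
      h.exists_four hm h5 h0 h1
    let t := c / (-2 * (B b w * B b u' * B u w'))
    obtain ⟨k, hk, hkB, hkx⟩ := hρ 0 1 (by simp) u hu w hw (hA.isRefl _ _ e5)
    obtain ⟨k', hk', hkB', hkx'⟩ := hρ 0 1 (by simp) u' hu' (t • w') ((D 1).smul_mem _ hw')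
      (by simp [e6])
    have ka : k a = a := by simp [hkx, e1, e3]
    have ka' : k' a = a := by simp [hkx', e2, e4]
    have r1 := hr.conj hk hkB
    have r2 := hr.conj hk' hkB'
    have o1 : B (k b) a = 0 := by rw [← ka, hkB, hab]
    have o2 : B (k' b) a = 0 := by rw [← ka', hkB', hab]
    rw [ka] at r1
    rw [ka'] at r2
    have := ((r1.comm hA o1 o2 r2).sub hA (r1.comm hA o1 hab hr)).sub hA (hr.comm hA hab o2 r2)
    convert this using 1
    simp only [hkx, hkx', map_add, map_smul, LinearMap.add_apply, LinearMap.smul_apply,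
      smul_eq_mul, hA.self_eq_zero, e7, h.sing 1 w hw w' hw', h.sing 0 u hu u' hu', t]
    field_simp
    ring
  obtain ⟨s, hsB, hs⟩ := h.exists_sp_swap hB hA hm
  have hsM := hM s (IsProj.stabD_of_le hm s _ hs) hsB
  have hmove : ∀ i, ∀ u ∈ D i, u ≠ 0 → FullSp M B u → ∀ u' ∈ D i, FullSp M B u' := by
    intro i u hu hu0 hf u' hu'
    by_cases h0 : u' ∈ F ∙ u
    · obtain ⟨c, rfl⟩ := Submodule.mem_span_singleton.1 h0
      exact hf.smul c
    obtain ⟨j, hj⟩ := exists_ne i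
    obtain ⟨z, hz, z1, -, z2⟩ := h.sep_pair hj.symm ((D i).sub_mem hu' hu) ((D i).sub_mem hu' hu)
      hu (by
        rw [Set.pair_eq_singleton]
        refine notMem_span_symm hu0 fun h3 => h0 ?_
        simpa using Submodule.add_mem _ h3 (Submodule.mem_span_singleton_self u))
    obtain ⟨k, hk, hkB, hkx⟩ := hρ i j hj.symm (u' - u) ((D i).sub_mem hu' hu)
      ((B u z)⁻¹ • z) ((D j).smul_mem _ hz) (by rw [map_smul, z1, smul_zero])
    have := hf.conj hk hkB
    rwa [hkx, h.sing i u hu _ ((D i).sub_mem hu' hu), map_smul, smul_eq_mul, inv_mul_cancel₀ z2,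
      zero_smul, add_zero, one_smul, add_sub_cancel] at this
  have hall : ∀ i, ∀ u ∈ D i, FullSp M B u := by
    obtain ⟨u, hu, w, hw, hu0, hw0, huw, h3⟩ := h.proj.exists_pair_of_not_stabD hm h5
      (φ := fun u => B u) (ψ := fun w => B w) (fun u w => ⟨hA.isRefl _ _, hA.isRefl _ _⟩) hns
    obtain ⟨k, hk, -, hkx⟩ := hρ 0 1 (by simp) u hu w hw huw
    have r := HasRho.conj hg hgB ⟨k, hk, hkx⟩
    have back : ∀ v, FullSp M B (g v) → FullSp M B v := fun v hv => by
      simpa using hv.conj (M.inv_mem hg) (fun x y => by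
        rw [← hgB]; simp)
    obtain ⟨i, x, hx, hx0, hf⟩ : ∃ i, ∃ x ∈ D i, x ≠ 0 ∧ FullSp M B x := by
      rcases h3 with h3 | h3
      · exact ⟨0, u, hu, hu0, back u (key _ _ (by rw [hgB]; exact hA.isRefl _ _ huw) r h3.1 h3.2)⟩
      · exact ⟨1, w, hw, hw0, back w (key _ _ (by rw [hgB]; exact huw) r.symm h3.1 h3.2)⟩
    intro j
    by_cases hij : j = i
    · exact hij ▸ hmove i x hx hx0 hf
    · have : Equiv.swap 0 1 i = j := by revert hij; fin_cases i <;> fin_cases j <;> simp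
      exact hmove j (s x) (this ▸ hs i x hx) (by simpa using hx0) (hf.conj hsM hsB)
  refine mem_of_forall_fullSp hB hA (fun v => ?_) e he
  rw [← h.proj.add_two v]
  have m0 := h.proj.mem 0 v
  have m1 := h.proj.mem 1 v
  by_cases h0 : π 0 v = 0
  · simpa [h0] using hall 1 _ m1
  by_cases h1 : B (π 0 v) (π 1 v) = 0
  swap; · exact (hall 0 _ m0).add hA (hall 1 _ m1) h1
  obtain ⟨z, hz, hz0⟩ := h.exists_ne_zero (j := 1) (by simp) m0 h0
  have := ((hall 0 _ m0).add hA (hall 1 z hz) hz0).add hA (hall 1 _ ((D 1).sub_mem m1 hz))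
    (by simpa [h1, h.sing 1 z hz _ m1, hA.self_eq_zero] using hz0)
  convert this using 1; abel

theorem two_ne_zero_of_odd [Fintype F] (h : Odd (Fintype.card F)) : (2 : F) ≠ 0 := by
  intro h2
  have h3 : ringChar F = 2 := by
    have : CharP F 2 := (CharP.charP_iff_prime_eq_zero Nat.prime_two).2 (by exact_mod_cast h2)
    exact ringChar.eq F 2
  exact (Nat.not_even_iff_odd.2 h) (FiniteField.even_card_of_char_two h3 |> Nat.even_iff.2)

theorem isMaximalIn_sp_pair [Fintype F] {m : ℕ} (h5 : 5 ≤ m) (hodd : Odd (Fintype.card F))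
    (D : Fin 2 → Submodule F (Fin m ⊕ Fin m → F)) (hD : IsMDecomposition m D)
    (hts : ∀ i, IsTotallySingularFor (sympForm m F) (D i)) :
    IsMaximalIn (spGL m F) (decompositionStabilizer D ⊓ spGL m F) := by
  obtain ⟨π, h⟩ := exists_isProj hD.indep hD.iSup_eq_top
  have hs := singPair_of_sp spForm_nondeg spForm_alt h fun i u hu v hv => by
    rw [← H54.sympForm_eq]; exact hts i u hu v hv
  refine isMaximalIn_of_toLE (StabD D)
    (fun e => ∀ u v, spForm m F (e u) (e v) = spForm m F u v) mem_spGL_iff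
    (fun g => and_congr (mem_decompositionStabilizer_iff D g) (mem_spGL_iff g)) ?_
    fun M hM hle g hg hns e he =>
      sp_pair_maximal spForm_nondeg spForm_alt (two_ne_zero_of_odd hodd) hs hD.finrank_eq h5 hM hg
        (hle g hg) hns e he
  obtain ⟨u, hu, hu0⟩ := exists_mem_notMem (W := D 0) (Z := ⊥) (by simp [hD.finrank_eq]; omega)
  obtain ⟨w, hw, hw0⟩ := hs.exists_ne_zero (j := 1) (by simp) hu (by simpa using hu0)
  obtain ⟨e, -, he⟩ := hasSp_of_forall (H := ⊤) spForm_alt (v := w) (c := 1) fun _ _ => trivial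
  refine ⟨e, isom_of_sp spForm_alt he, h.not_stabD hu (j := 0) (k := 1) (by simp) ?_ ?_⟩
  · simpa [he, h.of_mem hu, h.of_ne 0 1 (by simp) w hw] using hu0
  · have : w ≠ 0 := by rintro rfl; simp at hw0
    simpa [he, h.of_mem hw, h.of_ne 1 0 (by simp) u hu, this] using hw0

end H62
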