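import Cfsg.Agent.H62.C3SL
import Cfsg.Agent.H62.SpPair
import Cfsg.Agent.H62.OInSp

set_option autoImplicit false

/-! Symplectic forms which are traces of symplectic forms over an extension field. -/

namespace H62

open Module

variable {F K V : Type*} [Field F] [Field K] [Algebra F K] [AddCommGroup V] [Module F V]
  [Module K V] [IsScalarTower F K V]

/-- The maps `f : V → Y` vanishing on `Y` with `1 + f ∈ M`. -/
def addQ (M : Subgroup (V ≃ₗ[F] V)) (Y : Submodule F V) : AddSubgroup (V →ₗ[F] V) where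
  carrier := {f | (∀ z, f z ∈ Y) ∧ (∀ y ∈ Y, f y = 0) ∧ ∃ e ∈ M, ∀ z, e z = z + f z}
  zero_mem' := ⟨by simp, by simp, 1, M.one_mem, by simp⟩
  add_mem' := by
    rintro f f' ⟨h1, h2, e, he, hx⟩ ⟨h1', h2', e', he', hx'⟩
    refine ⟨fun z => Y.add_mem (h1 z) (h1' z), fun y hy => by simp [h2 y hy, h2' y hy],
      e * e', M.mul_mem he he', fun z => ?_⟩
    simp only [LinearEquiv.mul_apply, hx, hx', map_add, h2 _ (h1' z), LinearMap.add_apply]
    abel
  neg_mem' := by
    rintro f ⟨h1, h2, e, he, hx⟩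
    refine ⟨fun z => Y.neg_mem (h1 z), fun y hy => by simp [h2 y hy], e⁻¹, M.inv_mem he,
      fun z => e.injective ?_⟩
    rw [LinearEquiv.coe_inv, LinearEquiv.apply_symm_apply, hx]
    simp [h2 _ (h1 z)]

/-- `B` is obtained from the symplectic `K`-form `b` by the functional `c`. -/
structure TrForm (B : LinearMap.BilinForm F V) (b : LinearMap.BilinForm K V) (c : Dual F K) :
    Prop where
  nd : b.Nondegenerate
  alt : b.IsAlt
  ne : c ≠ 0
  eq : ∀ x y, B x y = c (b x y)

theorem dual_mul_ext {c : Dual F K} (hc : c ≠ 0) {x y : K} (h : ∀ k, c (k * x) = c (k * y)) :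
    x = y := by
  by_contra h0
  refine hc (LinearMap.ext fun k => ?_)
  have := h (k / (x - y))
  rwa [← sub_eq_zero, ← map_sub, ← mul_sub, div_mul_cancel₀ _ (sub_ne_zero.2 h0)] at this

variable {B : LinearMap.BilinForm F V} {b : LinearMap.BilinForm K V} {c : Dual F K}
  {M : Subgroup (V ≃ₗ[F] V)}

namespace TrForm

theorem isAlt (h : TrForm B b c) : B.IsAlt := fun x => by rw [h.eq, h.alt.self_eq_zero, map_zero]

theorem eq_smul (h : TrForm B b c) (x y : V) (k : K) : B x (k • y) = c (k * b x y) := by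
  simp [h.eq]

theorem eq_zero_of (h : TrForm B b c) {x y : V} (h0 : ∀ k : K, B x (k • y) = 0) : b x y = 0 :=
  dual_mul_ext h.ne fun k => by rw [← h.eq_smul, h0]; simp

theorem nondeg (h : TrForm B b c) : B.Nondegenerate := by
  have : ∀ x, (∀ y, B x y = 0) → x = 0 := fun x hx =>
    h.nd.1 x fun y => h.eq_zero_of fun k => hx _
  exact ⟨this, fun x hx => this x fun y => h.isAlt.isRefl _ _ (hx y)⟩

theorem kl_sing (h : TrForm B b c) {w x y : V} (hx : x ∈ kl F K w) (hy : y ∈ kl F K w) :
    B x y = 0 := by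
  obtain ⟨k, rfl⟩ := mem_kl.1 hx
  obtain ⟨l, rfl⟩ := mem_kl.1 hy
  simp [h.eq, h.alt.self_eq_zero]

end TrForm

/-- `M` contains the `K`-linear isometries. -/
def HasKSp (M : Subgroup (V ≃ₗ[F] V)) (b : LinearMap.BilinForm K V) : Prop :=
  ∀ e : V ≃ₗ[K] V, (∀ x y, b (e x) (e y) = b x y) → e.restrictScalars F ∈ M

theorem HasKSp.tv (hK : HasKSp M b) (hA : b.IsAlt) (w : V) (l : K) :
    ∃ e ∈ M, ∀ z, e z = z + (l * b z w) • w := by
  obtain ⟨e, -, he⟩ := hasSp_of_forall (H := ⊤) hA (v := w) (c := l) fun _ _ => trivial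
  exact ⟨_, hK e (isom_of_sp hA he), he⟩

theorem HasKSp.exists_map [FiniteDimensional K V] (hK : HasKSp M b) (h : TrForm B b c) {v w : V}
    (hv : v ≠ 0) (hw : w ≠ 0) : ∃ e ∈ M, (∀ x y, B (e x) (e y) = B x y) ∧
      ∀ k : K, e (k • v) = k • w := by
  obtain ⟨e, he, hx⟩ := sp_witt_family h.nd h.alt (fun _ : Unit => v) (fun _ => w)
    (linearIndependent_unique_iff.2 hv) (linearIndependent_unique_iff.2 hw)
    (fun _ _ => by simp [h.alt.self_eq_zero])
  exact ⟨_, hK e he, fun x y => by simp [h.eq, he], fun k => by simp [hx ()]⟩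

theorem hasRho_iff_mem (h : TrForm B b c) {w : V} (l m : K) :
    HasRho M B (l • w) (m • w) ↔
      (B.flip (l • w)).smulRight (m • w) + (B.flip (m • w)).smulRight (l • w) ∈
        addQ M (kl F K w) := by
  refine ⟨fun ⟨e, he, hx⟩ => ⟨fun z => Submodule.add_mem _ (Submodule.smul_mem _ _ (smul_mem_kl _ _))
    (Submodule.smul_mem _ _ (smul_mem_kl _ _)), fun y hy => by
      simp [h.kl_sing hy (smul_mem_kl _ _)], e, he, fun z => by simp [hx, add_assoc]⟩,
    fun ⟨_, _, e, he, hx⟩ => ⟨e, he, fun z => by simp [hx, add_assoc]⟩⟩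

variable [Finite K]

/-- If all short root elements supported on `K w` lie in `M`, so do the transvections. -/
theorem HasKSp.fullSp_of_rho (hK : HasKSp M b) (h : TrForm B b c) {w : V}
    (hρ : ∀ l m : K, HasRho M B (l • w) (m • w)) : FullSp M B w := fun s => by
  by_cases h2 : (2 : F) ≠ 0
  · obtain ⟨e, he, hx⟩ := hρ (algebraMap F K (s / 2)) 1
    refine ⟨e, he, fun z => ?_⟩
    simp only [hx, algebraMap_smul, one_smul, map_smul, smul_eq_mul]
    match_scalars <;> field_simp <;> ring
  push Not at h2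
  have : Finite F := Finite.of_injective _ (algebraMap F K).injective
  have hK2 : (2 : K) = 0 := by rw [← map_ofNat (algebraMap F K) 2, h2, map_zero]
  have : CharP K 2 := (CharP.charP_iff_prime_eq_zero Nat.prime_two).2 (by exact_mod_cast hK2)
  have : CharP F 2 := (CharP.charP_iff_prime_eq_zero Nat.prime_two).2 (by exact_mod_cast h2)
  let r := (frobeniusEquiv K 2).symm
  have hr : ∀ y, r y ^ 2 = y := fun y => (frobeniusEquiv K 2).apply_symm_apply y
  have hr' : ∀ y, r (y ^ 2) = y := fun y => (frobeniusEquiv K 2).symm_apply_apply y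
  let η : Dual F K :=
    { toFun := fun y => s * c (r y) ^ 2
      map_add' := fun x y => by rw [map_add, map_add, CharTwo.add_sq, mul_add]
      map_smul' := fun a y => by
        obtain ⟨a, rfl⟩ := (frobeniusEquiv F 2).surjective a
        have : r ((frobeniusEquiv F 2 a) • y) = a • r y := by
          rw [← hr' (a • r y), smul_pow, hr]; rfl
        simp only [this, map_smul, smul_eq_mul, RingHom.id_apply]
        change _ = a ^ 2 * _
        ring }
  obtain ⟨l, hl⟩ := exists_eq_mul h.ne η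
  have hl' : ∀ y, c (l * (y * y)) = s * (c y * c y) := fun y => by
    rw [← hl, ← sq, ← sq]; simp [η, hr']
  let β : LinearMap.BilinForm F K := (LinearMap.mul F K).compr₂ c
  have hβ : β.Nondegenerate := by
    have : ∀ x, (∀ y, β x y = 0) → x = 0 := fun x hx =>
      dual_mul_ext h.ne fun k => by simpa [β, mul_comm] using hx k
    exact ⟨this, fun x hx => this x fun y => by simpa [β, mul_comm] using hx y⟩
  let e := Module.finBasis F K
  let e' := β.dualBasis hβ e
  have he : ∀ y, y = ∑ i, c (e' i * y) • e i := fun y => by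
    conv_lhs => rw [← e.sum_repr y]
    refine Finset.sum_congr rfl fun i _ => ?_
    conv_rhs => rw [← e.sum_repr y]
    have : ∀ j, c (e' i * e j) = if j = i then 1 else 0 := fun j =>
      LinearMap.BilinForm.apply_dualBasis_left hβ e i j
    simp only [Finset.mul_sum, mul_smul_comm, map_sum, map_smul, this, smul_eq_mul, mul_ite,
      mul_one, mul_zero, Finset.sum_ite_eq', Finset.mem_univ, if_true]
  have he' : ∀ y, y = ∑ i, c (e i * y) • e' i := fun y => by
    refine dual_mul_ext h.ne fun k => ?_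
    conv_lhs => rw [he k]
    simp [Finset.mul_sum, Finset.sum_mul, mul_comm]
  let γ : K → K → F := fun x y => c (l * (x * y)) - s * (c x * c y)
  let E : _ × _ → V →ₗ[F] V := fun p =>
    γ (e' p.1) (e' p.2) • (B.flip (e p.2 • w)).smulRight (e p.1 • w)
  have h1 : ∑ p, E p ∈ addQ M (kl F K w) := by
    rw [← QuotientAddGroup.eq_zero_iff, ← QuotientAddGroup.mk'_apply, map_sum]
    refine Finset.sum_involution (fun p _ => p.swap) (fun p _ => ?_) (fun p _ hp h0 => hp ?_)
      (by simp) (by simp)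
    · rw [← map_add, QuotientAddGroup.mk'_apply, QuotientAddGroup.eq_zero_iff]
      convert (hasRho_iff_mem h _ _).1 (hρ (γ (e' p.1) (e' p.2) • e p.2) (e p.1)) using 1
      ext z
      simp [E, γ, mul_comm (e' p.2), mul_comm (c (e' p.2)), smul_smul, mul_comm]
    · have : p.2 = p.1 := congrArg Prod.fst h0
      simp [E, γ, this, hl']
  obtain ⟨t, ht, htx⟩ := hK.tv h.alt w l
  have h3 : ((l • b.flip w).smulRight w).restrictScalars F ∈ addQ M (kl F K w) :=
    ⟨fun z => smul_mem_kl _ _, fun y hy => by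
      obtain ⟨k, rfl⟩ := mem_kl.1 hy
      simp [h.alt.self_eq_zero], t, ht, htx⟩
  obtain ⟨-, -, u, hu, hux⟩ := sub_mem h3 h1
  refine ⟨u, hu, fun z => ?_⟩
  have h4 : ∀ i, ∑ j, γ (e' i) (e' j) * c (e j * b z w) =
      c (e' i * (l * b z w - (s * c (b z w)) • 1)) := fun i => by
    conv_rhs => rw [he' (b z w)]
    simp only [γ, Finset.mul_sum, map_sum, mul_sub, map_sub, map_smul, smul_eq_mul, mul_smul_comm,
      mul_one, Finset.sum_mul, ← Finset.sum_sub_distrib]
    exact Finset.sum_congr rfl fun j _ => by rw [mul_left_comm (e' i)]; ring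
  have h5 : (∑ p, E p) z = (l * b z w - (s * c (b z w)) • 1) • w := by
    conv_rhs => rw [he (l * b z w - (s * c (b z w)) • 1)]
    simp only [LinearMap.sum_apply, Fintype.sum_prod_type, E, LinearMap.smul_apply,
      LinearMap.smulRight_apply, LinearMap.BilinForm.flip_apply, h.eq_smul, ← h4, Finset.sum_smul,
      smul_smul, smul_assoc]
  rw [hux, LinearMap.sub_apply, h5, h.eq]
  simp [sub_smul]

end H62
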