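import Cfsg.Agent.H53.DGSpec2
import Cfsg.Agent.H56.OrthOrd
import Cfsg.Agent.H54.SpSimple
import Cfsg.Agent.H54.SpCard

/-! Tower DG (row S4984), slot BO: the bridge to the groups of the Prelude. -/

set_option autoImplicit false
set_option linter.unusedSectionVars false

namespace H62.DGBo

open Cfsg H28 H53.DG Matrix Module H56 H58

section Grp

variable {G H : Type*} [Group G] [Group H]

theorem map_center (φ : G ≃* H) : (Subgroup.center G).map (φ : G →* H) = Subgroup.center H := by
  ext x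
  obtain ⟨x, rfl⟩ := φ.surjective x
  rw [show φ x = (φ : G →* H) x from rfl, Subgroup.mem_map_iff_mem φ.injective,
    Subgroup.mem_center_iff, Subgroup.mem_center_iff, φ.surjective.forall]
  refine forall_congr' fun y => ?_
  rw [← φ.injective.eq_iff, map_mul, map_mul]
  rfl

theorem map_comm (φ : G ≃* H) : (commutator G).map (φ : G →* H) = commutator H := by
  rw [commutator_def, Subgroup.map_commutator, Subgroup.map_top_of_surjective _ φ.surjective,
    commutator_def]

/-- The commutator subgroup modulo its centre, along an isomorphism. -/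
noncomputable def poCongr (φ : G ≃* H) : commutator G ⧸ Subgroup.center (commutator G) ≃*
    commutator H ⧸ Subgroup.center (commutator H) :=
  QuotientGroup.congr _ _ ((φ.subgroupMap _).trans (MulEquiv.subgroupCongr (map_comm φ)))
    (map_center _)

end Grp

variable {F : Type} [Field F] [Fintype F] [DecidableEq F]

local notation "q" => Fintype.card F

theorem bridge {ι V : Type} [Fintype ι] [DecidableEq ι] [AddCommGroup V] [Module F V] (S : FS F V)
    (ho : S.o = true) (Q : QuadraticForm F (ι → F)) {q0 : (ι → F) → F} (hq : ⇑Q = q0)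
    (e : (ι → F) ≃ₗ[F] V) (he : ∀ v, S.Q (e v) = Q v) :
    Nonempty (POmega F q0 ≃* S.PO) ∧ (S.neg ∈ commutator S.I → O.negOne Q ∈ commutator (O Q)) ∧
      Nat.card S.PO ∣ Nat.card (O Q) := by
  let φ : O Q ≃* S.I := (O.congr e he).trans (MulEquiv.subgroupCongr (S.I_eq_OG ho).symm)
  have hn : φ (O.negOne Q) = S.neg := Subtype.ext (LinearEquiv.ext fun v => by
    change e (-(e.symm v)) = -v
    simp)
  refine ⟨⟨(pOmegaEquiv Q hq).trans (poCongr φ)⟩, fun h => ?_, ?_⟩
  · rw [← hn, ← map_comm φ] at h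
    exact (Subgroup.mem_map_iff_mem (f := (φ : O Q →* S.I)) φ.injective).1 h
  · rw [Nat.card_congr φ.toEquiv]
    exact (Subgroup.card_quotient_dvd_card _).trans (Subgroup.card_subgroup_dvd_card _)

theorem NN_eq (a n : ℕ) : NN a n = ∏ i ∈ Finset.range n, (a ^ (2 * (i + 1)) - 1) := by
  rw [NN, Finset.range_eq_Ico, Finset.prod_Ico_add' (fun i => a ^ (2 * i) - 1), zero_add,
    Finset.Ico_add_one_right_eq_Icc]

theorem two_dvd (a : ℕ) {n : ℕ} (hn : n ≠ 0) : 2 ∣ a * NN a n := by
  rcases Nat.even_or_odd a with h | h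
  · exact h.two_dvd.mul_right _
  · refine Dvd.dvd.mul_left ?_ _
    exact (Nat.Odd.sub_odd h.pow odd_one).two_dvd.trans (Finset.dvd_prod_of_mem
      (fun i => a ^ (2 * i) - 1) (Finset.mem_Icc.2 ⟨le_rfl, Nat.pos_of_ne_zero hn⟩))

theorem prime_dvd {r a k c n : ℕ} (hr : r.Prime) (hn : n ≠ 0)
    (h : r ∣ 2 * a ^ k * c * ∏ i ∈ Finset.range n, (a ^ (2 * (i + 1)) - 1)) : r ∣ a * c * NN a n := by
  rw [← NN_eq] at h
  rcases (hr.dvd_mul).1 h with h | h
  · rcases (hr.dvd_mul).1 h with h | h
    · rcases (hr.dvd_mul).1 h with h | h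
      · rw [mul_right_comm]
        exact (h.trans (two_dvd a hn)).mul_right _
      · exact ((hr.dvd_of_dvd_pow h).mul_right _).mul_right _
    · exact (h.mul_left _).mul_right _
  · exact h.mul_left _

theorem odd_card (h : (2 : F) ≠ 0) : Odd q := by
  refine Nat.not_even_iff_odd.1 fun he => h ?_
  have := (FiniteField.even_card_iff_char_two (F := F)).2 (Nat.even_iff.1 he)
  exact_mod_cast (ringChar.spec F 2).2 (this ▸ dvd_rfl)

theorem odd_of_pow {a n : ℕ} (hn : n ≠ 0) (h : a ^ n % 4 = 1 ∨ a ^ n % 4 = 3) : Odd a := by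
  refine Nat.not_even_iff_odd.1 fun he => ?_
  have := (Nat.even_pow.2 ⟨he, hn⟩).two_dvd
  omega

/-- Coordinates, plus type. -/
def eP (n : ℕ) : (Fin n ⊕ Fin n → F) ≃ₗ[F] EV F n PUnit where
  toFun v := (fun i => v (.inl i), PUnit.unit, fun i => v (.inr i))
  invFun z := Sum.elim z.1 z.2.2
  map_add' _ _ := rfl
  map_smul' _ _ := rfl
  left_inv v := funext fun i => by cases i <;> rfl
  right_inv _ := rfl

/-- Coordinates, odd dimension. -/
def eO (n : ℕ) : (Unit ⊕ (Fin n ⊕ Fin n) → F) ≃ₗ[F] EV F n F where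
  toFun v := (fun i => v (.inr (.inl i)), v (.inl ()), fun i => v (.inr (.inr i)))
  invFun z := Sum.elim (fun _ => z.2.1) (Sum.elim z.1 z.2.2)
  map_add' _ _ := rfl
  map_smul' _ _ := rfl
  left_inv v := funext fun i => by rcases i with _ | _ | _ <;> rfl
  right_inv _ := rfl

/-- Coordinates, minus type. -/
def eM (n : ℕ) : ((Fin n ⊕ Fin n) ⊕ Fin 2 → F) ≃ₗ[F] EV F n (Fin 2 → F) where
  toFun v := (fun i => v (.inl (.inl i)), fun j => v (.inr j), fun i => v (.inl (.inr i)))
  invFun z := Sum.elim (Sum.elim z.1 z.2.2) z.2.1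
  map_add' _ _ := rfl
  map_smul' _ _ := rfl
  left_inv v := funext fun i => by rcases i with (_ | _) | _ <;> rfl
  right_inv _ := rfl

theorem jobBO : ABO := by
  intro F _ _ _
  refine ⟨fun h n hn => ?_, fun n hn => ?_, fun a b h n hn => ?_⟩
  · obtain ⟨h1, h2, h3⟩ := bridge ((one F h).ext n) rfl (qOdd n F) (coe_qOdd n F) (eO n) fun v => by
      rw [qOdd_apply, add_comm, pow_two]
      exact congrArg (· + v (.inl ()) * v (.inl ())) (one_mul _)
    refine ⟨h1, fun e => negOne_notMem_commutator_of_odd (qOdd_nondeg n h) h ⟨n, by simp; ring⟩ (h2 e),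
      fun r hr hd => ?_⟩
    have h4 := hd.trans h3
    rw [qOdd, card_O_qOddc h n one_ne_zero, ← mul_one (2 * _)] at h4
    simpa using prime_dvd hr (by omega) h4
  · obtain ⟨h1, h2, h3⟩ := bridge ((zero F true).ext n) rfl (qPlus n F) (coe_qPlus n F) (eP n) fun v => by
      rw [qPlus_apply]
      exact (add_zero _).trans (one_mul _)
    refine ⟨h1, fun h4 e => ?_, fun r hr hd => ?_⟩
    · have := (negOne_mem_commutator_qPlus (odd_of_pow (n := n) (by omega) (Or.inr h4)) n).1 (h2 e)
      omega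
    · obtain ⟨m, rfl⟩ : ∃ m, n = m + 1 := ⟨n - 1, by omega⟩
      have h4 := hd.trans h3
      rw [card_O_qPlus] at h4
      exact prime_dvd hr (by omega) h4
  · obtain ⟨m, rfl⟩ : ∃ m, n = m + 1 := ⟨n - 1, by omega⟩
    obtain ⟨h1, h2, h3⟩ := bridge ((two h).ext m) rfl (qMinus m F a b) (coe_qMinus m F a b) (eM m)
      fun v => by
        rw [qMinus_apply]
        exact congrArg₂ (· + ·) (one_mul _) (q2_apply a b _)
    refine ⟨h1, fun h4 e => ?_, fun r hr hd => ?_⟩
    · have := (negOne_mem_commutator_qMinus (odd_of_pow (n := m + 1) (by omega) (Or.inl h4)) m h).1 (h2 e)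
      omega
    · have h4 := hd.trans h3
      rw [card_O_qMinus m h] at h4
      exact prime_dvd hr (by omega) h4

theorem jobBS : ABS := by
  intro F _ _ _ n hn
  refine ⟨?_, fun r hr hd => ?_⟩
  · rintro d ⟨χ, c1, c2, c3⟩
    obtain ⟨φ, hφ⟩ := H54.exists_isometry_std' ((zero F false).ext n).nd
      (((zero F false).ext n).hS rfl).2 (Fin n) (by simp [finrank_prod, two_mul, finrank_zero_of_subsingleton])
    let ψ : ((zero F false).ext n).I ≃* Matrix.symplecticGroup (Fin n) F :=
      (MulEquiv.subgroupCongr (FS.I_eq_Isom _ rfl)).trans (H54.isomEquivSp φ hφ)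
    have hψ : ψ ((zero F false).ext n).neg = H54.spNegOne (Fin n) F := H54.sp_ext fun v => by
      obtain ⟨v, rfl⟩ := φ.surjective v
      rw [H54.spNegOne_smul, ← map_neg]
      exact H54.isomEquivSp_smul φ hφ _ v
    have c4 := c1.comp_mulEquiv ψ.symm
    obtain ⟨η, h1, h2⟩ := c4.exists_quotient (Subgroup.center _) fun g hg => by
      rw [c4.isCharacter.mem_charKer]
      rcases H54.mem_center_sp_iff.1 hg with rfl | rfl
      · rfl
      · rw [← hψ, MulEquiv.symm_apply_apply, map_one, c3]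
    refine ⟨⟨η, h1⟩, ?_⟩
    have h3 := h2 1
    rw [QuotientGroup.mk_one, map_one, c2] at h3
    simp [charDegree, h3]
  · have h4 := (hd.trans (Subgroup.card_quotient_dvd_card _)).mul_left 2
    rw [H54.card_sp, H54.spOrder_def, Fintype.card_fin, Nat.card_eq_fintype_card, ← mul_assoc,
      ← mul_one (2 * _)] at h4
    simpa using prime_dvd hr (by omega) h4

end H62.DGBo
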