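import Cfsg.Agent.H53.DGSpec2

/-! Tower DG (row S4984), slot Iso: counting singular vectors, transport along isometries. -/

set_option autoImplicit false
set_option linter.unusedSectionVars false

namespace H62.DGIso

open Cfsg H28 H53.DG Matrix Module

section Sv

variable {F : Type} [Field F] [Fintype F] [DecidableEq F]

/-- An affine hyperplane. -/
theorem card_hyper {r : ℕ} {x : Fin r → F} (hx : x ≠ 0) (c : F) :
    (Finset.univ.filter fun y : Fin r → F => x ⬝ᵥ y = c).card = Fintype.card F ^ (r - 1) := by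
  obtain ⟨i, hi⟩ := Function.ne_iff.1 hx
  let f : (Fin r → F) →+ F := (dotProductBilin F F x).toAddMonoidHom
  have hs : ∀ c, c ∈ Set.range f := fun c => ⟨Pi.single i (c / x i), by
    have hi' : x i ≠ 0 := hi
    simp [f]
    field_simp⟩
  have h1 : ∀ d, (Finset.univ.filter fun y => f y = d).card =
      (Finset.univ.filter fun y => f y = c).card := fun d =>
    AddMonoidHom.card_fiber_eq_of_mem_range f (hs d) (hs c)
  have h2 := Finset.card_eq_sum_card_fiberwise (f := f) (s := Finset.univ) (t := Finset.univ)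
    fun _ _ => Finset.mem_univ _
  rw [Finset.sum_congr rfl fun d _ => h1 d, Finset.sum_const, Finset.card_univ, Finset.card_univ,
    Fintype.card_fun, Fintype.card_fin, smul_eq_mul] at h2
  obtain ⟨k, rfl⟩ := Nat.exists_eq_succ_of_ne_zero i.pos.ne'
  rw [pow_succ'] at h2
  exact (Nat.eq_of_mul_eq_mul_left Fintype.card_pos h2).symm

variable {V : Type} [AddCommGroup V] [Module F V] [Fintype V]

theorem card_fib (S : FS F V) {r : ℕ} {x : Fin r → F} (hx : x ≠ 0) :
    (Finset.univ.filter fun z : V × (Fin r → F) => (S.ext r).Q (x, z) = 0).card =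
      Fintype.card F ^ (r - 1) * S.a := by
  classical
  cases h : S.o
  · have hr : r ≠ 0 := by
      rintro rfl
      exact hx (Subsingleton.elim _ _)
    obtain ⟨k, rfl⟩ := Nat.exists_eq_succ_of_ne_zero hr
    rw [Finset.filter_true_of_mem fun z _ => by simp [FS.κ, h, (S.hS h).1]]
    simp [FS.a, h, pow_succ]
    ring
  · rw [Finset.card_eq_sum_card_fiberwise (f := Prod.fst) (t := Finset.univ) fun _ _ => Finset.mem_univ _,
      Finset.sum_congr rfl (g := fun _ => Fintype.card F ^ (r - 1)) fun v _ => ?_]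
    · simp [FS.a, h, mul_comm]
    · rw [← card_hyper hx (-S.Q v)]
      refine Finset.card_bij (fun z _ => z.2) (fun z hz => ?_) (fun z hz z' hz' e => ?_)
        fun y hy => ⟨(v, y), ?_, rfl⟩
      · simp only [Finset.mem_filter, Finset.mem_univ, true_and, FS.ext_Q, FS.κ, h, if_true,
          one_mul] at hz ⊢
        rw [← hz.2]
        exact eq_neg_of_add_eq_zero_left hz.1
      · exact Prod.ext ((Finset.mem_filter.1 hz).2.trans (Finset.mem_filter.1 hz').2.symm) e
      · simp only [Finset.mem_filter, Finset.mem_univ, true_and, FS.ext_Q, FS.κ, h, if_true,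
          one_mul, and_true] at hy ⊢
        rw [hy, neg_add_cancel]

theorem card_sing (S : FS F V) (hS : S.An) (r : ℕ) :
    Nat.card {v // v ≠ 0 ∧ (S.ext r).Q v = 0} = sv (Fintype.card F) S.a r := by
  classical
  have h0 : (Finset.univ.filter fun z : V × (Fin r → F) => (S.ext r).Q (0, z) = 0).card =
      Fintype.card F ^ r := by
    rw [show Fintype.card F ^ r = (Finset.univ : Finset (Fin r → F)).card by simp]
    refine Finset.card_bij (fun z _ => z.2) (fun z hz => Finset.mem_univ _) (fun z hz z' hz' e => ?_)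
      fun y hy => ⟨(0, y), by simp, rfl⟩
    simp only [Finset.mem_filter, Finset.mem_univ, true_and, FS.ext_Q, zero_dotProduct, mul_zero,
      zero_add] at hz hz'
    exact Prod.ext ((hS _ hz).trans (hS _ hz').symm) e
  have h1 : (Finset.univ.filter fun z : EV F r V => (S.ext r).Q z = 0).card =
      ∑ x : Fin r → F, (Finset.univ.filter fun z : V × (Fin r → F) => (S.ext r).Q (x, z) = 0).card := by
    rw [Finset.card_filter, Fintype.sum_prod_type]
    exact Finset.sum_congr rfl fun x _ => (Finset.card_filter _ _).symm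
  rw [← Finset.add_sum_erase _ _ (Finset.mem_univ 0), h0,
    Finset.sum_congr rfl fun x hx => card_fib S (Finset.ne_of_mem_erase hx), Finset.sum_const,
    Finset.card_erase_of_mem (Finset.mem_univ _), Finset.card_univ, Fintype.card_fun,
    Fintype.card_fin, smul_eq_mul] at h1
  have h2 : (Finset.univ.filter fun z : EV F r V => z ≠ 0 ∧ (S.ext r).Q z = 0) =
      (Finset.univ.filter fun z : EV F r V => (S.ext r).Q z = 0).erase 0 := by
    ext z; simp only [Finset.mem_filter, Finset.mem_univ, true_and, Finset.mem_erase]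
  rw [Nat.card_eq_fintype_card, Fintype.card_subtype, h2,
    Finset.card_erase_of_mem (by simp only [Finset.mem_filter, Finset.mem_univ, true_and, map_zero]),
    h1, sv]
  obtain ⟨t, ht⟩ : ∃ t, Fintype.card F ^ r = t + 1 :=
    Nat.exists_eq_succ_of_ne_zero (pow_pos Fintype.card_pos r).ne'
  rw [ht, Nat.add_sub_cancel, mul_add, mul_one]
  omega

theorem card_pt (S : FS F V) :
    Nat.card S.Pt * (Fintype.card F - 1) = Nat.card {v // v ≠ 0 ∧ S.Q v = 0} := by
  classical
  let f : {v // v ≠ 0 ∧ S.Q v = 0} → S.Pt := fun v => ⟨F ∙ v.1, finrank_span_singleton v.2.1, fun u hu => by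
    obtain ⟨c, rfl⟩ := Submodule.mem_span_singleton.1 hu
    rw [QuadraticMap.map_smul, v.2.2, smul_zero]⟩
  have := Fintype.ofFinite S.Pt
  rw [← Nat.card_congr (Equiv.sigmaFiberEquiv f), Nat.card_sigma,
    Finset.sum_congr rfl (g := fun _ => Fintype.card F - 1) fun p _ => ?_]
  · simp
  · have h1 : Nat.card p.1 = Fintype.card F := by
      rw [Module.natCard_eq_pow_finrank (K := F), p.2.1, pow_one, Nat.card_eq_fintype_card]
    have h2 : Nat.card {u : p.1 // u ≠ 0} = Nat.card p.1 - 1 := by
      rw [Nat.card_eq_fintype_card, Nat.card_eq_fintype_card, Fintype.card_subtype_compl,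
        Fintype.card_subtype_eq]
    rw [← h1, ← h2]
    refine Nat.card_congr
      { toFun := fun v => ⟨⟨v.1.1, (congrArg Subtype.val v.2).le (Submodule.mem_span_singleton_self _)⟩,
          fun e => v.1.2.1 (congrArg Subtype.val e)⟩
        invFun := fun u => ⟨⟨u.1.1, fun e => u.2 (Subtype.ext e), p.2.2 _ u.1.2⟩, Subtype.ext
          (Submodule.eq_of_le_of_finrank_eq ((Submodule.span_singleton_le_iff_mem _ _).2 u.1.2)
            ((finrank_span_singleton fun e => u.2 (Subtype.ext e)).trans p.2.1.symm))⟩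
        left_inv := fun _ => rfl
        right_inv := fun _ => rfl }

theorem jobSv : ASv := fun _ _ _ _ _ _ _ _ S hS r =>
  ⟨card_sing S hS r, (card_pt (S.ext r)).trans (card_sing S hS r)⟩

end Sv

section Iso

variable {F V V' : Type} [Field F] [AddCommGroup V] [Module F V] [AddCommGroup V'] [Module F V']

theorem append_dot {m k : ℕ} (a c : Fin m → F) (b d : Fin k → F) :
    Fin.append a b ⬝ᵥ Fin.append c d = a ⬝ᵥ c + b ⬝ᵥ d := by
  simp [dotProduct, Fin.sum_univ_add]

/-- Associativity of `ext`. -/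
def assoc (m k : ℕ) : EV F k (EV F m V) ≃ₗ[F] EV F (m + k) V where
  toFun z := (Fin.append z.2.1.1 z.1, z.2.1.2.1, Fin.append z.2.1.2.2 z.2.2)
  invFun z := (fun i => z.1 (Fin.natAdd m i), (fun i => z.1 (Fin.castAdd k i), z.2.1,
    fun i => z.2.2 (Fin.castAdd k i)), fun i => z.2.2 (Fin.natAdd m i))
  map_add' a b := by
    refine Prod.ext (funext fun i => ?_) (Prod.ext rfl (funext fun i => ?_)) <;>
      induction i using Fin.addCases <;> simp
  map_smul' a b := by
    refine Prod.ext (funext fun i => ?_) (Prod.ext rfl (funext fun i => ?_)) <;>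
      induction i using Fin.addCases <;> simp
  left_inv z := by simp
  right_inv z := by
    refine Prod.ext (funext fun i => ?_) (Prod.ext rfl (funext fun i => ?_)) <;>
      induction i using Fin.addCases <;> simp

theorem iso_assoc (S : FS F V) (m k : ℕ) : ((S.ext m).ext k).Iso (S.ext (m + k)) := by
  refine ⟨rfl, assoc m k, fun u v => ?_, fun v => ?_⟩
  · simp only [assoc, LinearEquiv.coe_mk, LinearMap.coe_mk, AddHom.coe_mk, FS.ext_B, append_dot,
      FS.ext_ε]
    ring
  · simp only [assoc, LinearEquiv.coe_mk, LinearMap.coe_mk, AddHom.coe_mk, FS.ext_Q, append_dot,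
      FS.ext_κ]
    ring

theorem iso_zero (S : FS F V) : (S.ext 0).Iso S :=
  ⟨rfl,
    { toFun := fun z => z.2.1
      invFun := fun v => (0, v, 0)
      map_add' := fun _ _ => rfl
      map_smul' := fun _ _ => rfl
      left_inv := fun _ => Prod.ext (Subsingleton.elim _ _) (Prod.ext rfl (Subsingleton.elim _ _))
      right_inv := fun _ => rfl },
    fun u v => by simp, fun v => by simp⟩

theorem iso_symm {S : FS F V} {S' : FS F V'} (h : S.Iso S') : S'.Iso S :=
  let ⟨h0, e, h1, h2⟩ := h
  ⟨h0.symm, e.symm, fun u v => by rw [← h1]; simp, fun v => by rw [← h2]; simp⟩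

theorem iso_trans {V'' : Type} [AddCommGroup V''] [Module F V''] {S : FS F V} {S' : FS F V'}
    {S'' : FS F V''} (h : S.Iso S') (k : S'.Iso S'') : S.Iso S'' :=
  let ⟨h0, e, h1, h2⟩ := h
  let ⟨k0, f, k1, k2⟩ := k
  ⟨h0.trans k0, e.trans f, fun _ _ => (k1 _ _).trans (h1 _ _), fun _ => (k2 _).trans (h2 _)⟩

variable {S : FS F V} {S' : FS F V'} (e : V ≃ₗ[F] V') (h1 : ∀ u v, S'.B (e u) (e v) = S.B u v)
  (h2 : ∀ v, S'.Q (e v) = S.Q v)

/-- Conjugation by an isometry. -/
def cj : S.I ≃* S'.I where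
  toFun g := ⟨e.symm.trans (g.1.trans e), fun u v => by
    simp only [LinearEquiv.trans_apply, h1, S.I_B]; rw [← h1]; simp, fun v => by
    simp only [LinearEquiv.trans_apply, h2, S.I_Q]; rw [← h2]; simp⟩
  invFun g := ⟨e.trans (g.1.trans e.symm), fun u v => by
    rw [← h1]; simp [S'.I_B, h1], fun v => by rw [← h2]; simp [S'.I_Q, h2]⟩
  left_inv g := Subtype.ext (LinearEquiv.ext fun v => by simp)
  right_inv g := Subtype.ext (LinearEquiv.ext fun v => by simp)
  map_mul' a b := Subtype.ext (LinearEquiv.ext fun v => by simp)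

theorem cj_apply (g : S.I) (v : V') : (cj e h1 h2 g).1 v = e (g.1 (e.symm v)) := rfl

/-- Transport of points. -/
def pt : S.Pt ≃ S'.Pt where
  toFun p := ⟨p.1.map e.toLinearMap, (LinearEquiv.finrank_map_eq e p.1).trans p.2.1, by
    rintro _ ⟨v, hv, rfl⟩; exact (h2 v).trans (p.2.2 v hv)⟩
  invFun p := ⟨p.1.map e.symm.toLinearMap, (LinearEquiv.finrank_map_eq e.symm p.1).trans p.2.1, by
    rintro _ ⟨v, hv, rfl⟩; rw [← h2]; simpa using p.2.2 v hv⟩
  left_inv p := Subtype.ext (by simp [← Submodule.map_comp])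
  right_inv p := Subtype.ext (by simp [← Submodule.map_comp])

theorem pt_smul (g : S.I) (p : S.Pt) : pt e h2 (g • p) = cj e h1 h2 g • pt e h2 p :=
  Subtype.ext (by
    change (p.1.map g.1.toLinearMap).map e.toLinearMap =
      (p.1.map e.toLinearMap).map (cj e h1 h2 g).1.toLinearMap
    rw [← Submodule.map_comp, ← Submodule.map_comp]
    congr 1
    ext v
    simp [cj_apply])

theorem pc_cj (g : S.I) : S'.pc (cj e h1 h2 g) = S.pc g := by
  simp only [FS.pc, H30.fixChar_apply]
  congr 1
  refine (Nat.card_congr ((pt e h2).subtypeEquiv fun p => ?_)).symm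
  change g • p = p ↔ cj e h1 h2 g • pt e h2 p = pt e h2 p
  rw [← pt_smul, (pt e h2).apply_eq_iff_eq]

theorem cj_neg : cj e h1 h2 S.neg = S'.neg := Subtype.ext (LinearEquiv.ext fun v => by simp [cj_apply])

end Iso

theorem jobIso : AIso := by
  intro F _ _ _ V _ _ _ S
  refine ⟨iso_assoc S, iso_zero S, fun V' _ _ S' h => ⟨iso_symm h, ?_⟩⟩
  obtain ⟨-, e, h1, h2⟩ := h
  refine ⟨⟨cj e h1 h2, cj_neg e h1 h2, pc_cj e h1 h2⟩, fun d => ⟨?_, ?_, ?_⟩⟩
  · rintro ⟨χ, c1, c2, c3⟩
    refine ⟨_, c1.comp_mulEquiv (cj e h1 h2).symm, by rwa [map_one], ?_⟩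
    rw [← cj_neg e h1 h2, MulEquiv.symm_apply_apply, map_one, c3]
  · rintro ⟨χ, c1, c2⟩
    exact ⟨_, c1.comp_mulEquiv (cj e h1 h2).symm, by rwa [map_one]⟩
  · rintro ⟨χ, c1, c2, τ, c3, c4⟩
    refine ⟨_, c1.comp_mulEquiv (cj e h1 h2).symm, by rwa [map_one], _,
      c3.comp (cj e h1 h2).symm.toMonoidHom, funext fun g => ?_⟩
    obtain ⟨g, rfl⟩ := (cj e h1 h2).surjective g
    simp [pc_cj, c4]

end H62.DGIso
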