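import Cfsg.Agent.H11.FBSpec
import Cfsg.Agent.H89.ONanModel

/-! # S3404, slot ONa: O'Nan's geometry for the two-point stabiliser -/

set_option autoImplicit false

namespace H62.FB

open MulAction Subgroup H11.FB

universe u v

section

variable {G : Type u} {Ω : Type v} [Group G] [MulAction G Ω]

theorem smul_ne {a x : Ω} {g : G} (hg : g • a = a) (hx : x ≠ a) : g • x ≠ a := fun e =>
  hx (MulAction.injective g (e.trans hg.symm))

/-- the action of `G_{ab}` on the remaining points -/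
@[reducible] def act (G : Type u) [Group G] [MulAction G Ω] (a b : Ω) :
    MulAction (Y2 G a b) {x : Ω // x ≠ a ∧ x ≠ b} where
  smul g x := ⟨(g : G) • (x : Ω), smul_ne (mem_Y2.1 g.2).1 x.2.1, smul_ne (mem_Y2.1 g.2).2 x.2.2⟩
  one_smul x := Subtype.ext (one_smul G (x : Ω))
  mul_smul g h x := Subtype.ext (mul_smul (g : G) (h : G) (x : Ω))

end

theorem jobONa : JobONa.{u, v} := by
  intro G Ω _ _ _ _ _ _ a b c d K H B hy hB hn hab hns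
  obtain ⟨hab', hac, had, hbc, hbd, hcd⟩ := hy.ne
  let := act G a b
  have sm : ∀ (g : Y2 G a b) (x : {x : Ω // x ≠ a ∧ x ≠ b}),
      ((g • x : {x : Ω // x ≠ a ∧ x ≠ b}) : Ω) = (g : G) • (x : Ω) := fun _ _ => rfl
  have : FaithfulSMul (Y2 G a b) {x : Ω // x ≠ a ∧ x ≠ b} := ⟨fun {g g'} e => by
    apply Subtype.ext
    refine eq_of_smul_eq_smul (α := Ω) fun x => ?_
    by_cases h1 : x = a
    · rw [h1, (mem_Y2.1 g.2).1, (mem_Y2.1 g'.2).1]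
    by_cases h2 : x = b
    · rw [h2, (mem_Y2.1 g.2).2, (mem_Y2.1 g'.2).2]
    exact congrArg Subtype.val (e ⟨x, h1, h2⟩)⟩
  have h2 : IsMultiplyPretransitive (Y2 G a b) {x : Ω // x ≠ a ∧ x ≠ b} 2 := by
    rw [is_two_pretransitive_iff]
    intro x y x' y' hxy hxy'
    obtain ⟨g, e1, e2, e3, e4⟩ := hy.exists_smul (x := a) (y := b) (z := x) (w := y) (x' := a)
      (y' := b) (z' := x') (w' := y')
      ⟨hab', x.2.1.symm, y.2.1.symm, x.2.2.symm, y.2.2.symm, fun e => hxy (Subtype.ext e)⟩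
      ⟨hab', x'.2.1.symm, y'.2.1.symm, x'.2.2.symm, y'.2.2.symm, fun e => hxy' (Subtype.ext e)⟩
    exact ⟨⟨g, mem_Y2.2 ⟨e1, e2⟩⟩, Subtype.ext e3, Subtype.ext e4⟩
  let c' : {x : Ω // x ≠ a ∧ x ≠ b} := ⟨c, hac.symm, hbc.symm⟩
  let d' : {x : Ω // x ≠ a ∧ x ≠ b} := ⟨d, had.symm, hbd.symm⟩
  obtain ⟨p, M, h, -⟩ := H89.onan h2 c' (B.subgroupOf (Y2 G a b))
    (fun g hg => Subtype.ext (mem_X3.1 (hB hg)).2.2)
    (fun g hg n hn' => hn g (mem_X3.2 ⟨(mem_Y2.1 g.2).1, (mem_Y2.1 g.2).2,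
      congrArg Subtype.val (mem_stabilizer_iff.1 hg)⟩) n hn')
    (fun x hx y hy' => Subtype.ext (hab x hx y hy'))
    (by
      obtain ⟨x, hx, x1, ω, w1, w2, w3, e⟩ := hns
      have hx' := mem_X3.1 (hB hx)
      exact ⟨⟨x, mem_Y2.2 ⟨hx'.1, hx'.2.1⟩⟩, hx, fun e => x1 (congrArg Subtype.val e),
        ⟨ω, w1, w2⟩, fun e => w3 (congrArg Subtype.val e), Subtype.ext e⟩)
  obtain ⟨F, iF, iF', n, ρ, h3, m⟩ := h.exists_projModel
  let ρ' : Ω → Fin n → F := fun x => if hx : x ≠ a ∧ x ≠ b then ρ ⟨x, hx⟩ else 0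
  have hρ : ∀ x (h1 : x ≠ a) (h2 : x ≠ b), ρ' x = ρ ⟨x, h1, h2⟩ := fun x h1 h2 => dif_pos ⟨h1, h2⟩
  refine ⟨p, F, iF, iF', n, ρ', h.prime, ?_, h3, ?_, ?_, ?_, ?_⟩
  · have hcd' : c' ≠ d' := fun e => hcd (congrArg Subtype.val e)
    obtain ⟨x, hx, x1⟩ := h.exists_A hcd'
    let U : Subgroup G := (H89.ONan.A M c' d').map (Y2 G a b).subtype
    have hU : U ≤ L4 G a b c d := by
      rintro _ ⟨y, hy', rfl⟩
      exact mem_L4.2 ⟨(mem_Y2.1 y.2).1, (mem_Y2.1 y.2).2, congrArg Subtype.val (h.fix hy'.1),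
        congrArg Subtype.val (mem_stabilizer_iff.1 hy'.2)⟩
    have hN : Nm (L4 G a b c d) U := by
      rintro l hl _ ⟨y, hy', rfl⟩
      obtain ⟨l1, l2, l3, l4⟩ := mem_L4.1 hl
      have := h.conj_A ⟨l, mem_Y2.2 ⟨l1, l2⟩⟩ hy'
      have e1 : (⟨l, mem_Y2.2 ⟨l1, l2⟩⟩ : Y2 G a b) • c' = c' := Subtype.ext l3
      have e2 : (⟨l, mem_Y2.2 ⟨l1, l2⟩⟩ : Y2 G a b) • d' = d' := Subtype.ext l4
      rw [e1, e2] at this
      exact ⟨_, this, rfl⟩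
    have hP : IsPGroup p U := ((h.pgrp c').to_le inf_le_left).map _
    have hK := hy.fr.pgroup_le h.prime hU hN hP
    have : Fact p.Prime := ⟨h.prime⟩
    have hxU : (x : G) ∈ U := ⟨x, hx, rfl⟩
    obtain ⟨k, hk⟩ := (IsPGroup.iff_orderOf.1 hP) ⟨_, hxU⟩
    rw [← orderOf_coe] at hk
    have k0 : k ≠ 0 := by
      rintro rfl
      exact x1 (Subtype.ext (orderOf_eq_one_iff.1 (by simpa using hk)))
    exact (dvd_pow_self p k0).trans (hk ▸ orderOf_dvd_natCard K (hK hxU))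
  · intro x h1 h2
    rw [hρ x h1 h2]
    exact m.ne_zero _
  · intro w hw
    obtain ⟨x, k, e⟩ := m.surj w hw
    exact ⟨x, x.2.1, x.2.2, k, by rw [hρ x x.2.1 x.2.2]; exact e⟩
  · intro x y h1 h2 h3 h4 k e
    rw [hρ x h1 h2, hρ y h3 h4] at e
    exact congrArg Subtype.val (m.inj k e)
  · intro x h1 h2 f hf
    rw [hρ x h1 h2] at hf
    obtain ⟨t, ht, e⟩ := h.exists_mem_of_tv m ⟨x, h1, h2⟩ f hf
    refine ⟨t, t.2, ?_, fun y h3 h4 => ?_⟩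
    · obtain ⟨k, hk⟩ := h.pgrp _ ⟨t, ht⟩
      exact ⟨k, congrArg Subtype.val (congrArg Subtype.val hk)⟩
    · obtain ⟨k, hk⟩ := e ⟨y, h3, h4⟩
      rw [H57.tv_mulVec] at hk
      refine ⟨k, ?_⟩
      rw [hρ x h1 h2, hρ y h3 h4,
        hρ _ (smul_ne (mem_Y2.1 t.2).1 h3) (smul_ne (mem_Y2.1 t.2).2 h4)]
      exact hk

end H62.FB
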