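/- Parrott's theorem, step TORA: a torus in standard position (blueprints/PARROTT.md). -/
import Cfsg.Agent.H63.OcSpec
import Cfsg.Agent.H45.DadeGroup

set_option autoImplicit false
set_option linter.unusedSectionVars false

open Subgroup H63.Oc

universe u v

namespace H62.Par

variable {K : Type*} [Field K] [CharP K 2] {T : TF K} {G : Type*} [Group G]

theorem ww_mul (s r s' r' : K) : ww T s r * ww T s' r' = ww T (s + s') (r + r') := by
  ext <;> simp [ww]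

theorem ww_eq (s r : K) : ww T s r = x6 T s * x4 T r := by
  ext <;> simp [ww, x6, x4]

theorem ww_x4 (s r r' : K) : ww T s r * x4 T r' = ww T s (r + r') := by
  ext <;> simp [ww, x4]

theorem eq_x4 {c : Co T} (hc : c ∈ sZ T) : c = x4 T c.a4 := by
  obtain ⟨h1, h2, h3, h4, h5, h6, h7, h8, h9, h10, h11⟩ := hc
  ext <;> simp [x4, *]

theorem eq_ww {c : Co T} (hc : c ∈ sW T) : c = ww T c.a6 c.a4 := by
  obtain ⟨h1, h2, h3, h4, h5, h6, h7, h8, h9, h10⟩ := hc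
  ext <;> simp [ww, *]

theorem x4_mem (t : K) : x4 T t ∈ sZ T := by simp [mem_sZ, x4]

theorem ww_mem (s r : K) : ww T s r ∈ sW T := by simp [mem_sW, ww]

theorem x4_sq (t : K) : x4 T t * x4 T t = 1 := by
  ext <;> simp [x4, CharTwo.add_self_eq_zero]

theorem dg_x4 (a b t : K) : dg T a b (x4 T t) = x4 T (chi4 T a b * t) := by
  ext <;> simp [dg, x4, chi4]

theorem dg_x6 (a b t : K) : dg T a b (x6 T t) = ww T (chi6 T a b * t) 0 := by
  ext <;> simp [dg, x6, ww, chi6]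

theorem dg_nu8 (a : K) (c : Co T) : (dg T a 1 c).nu8 = dg T a 1 c.nu8 := by
  ext <;> simp [dg, Co.nu8, T.sq] <;> grind

theorem dg_u8 (a : K) {c : Co T} (hc : c ∈ sU8 T) : dg T a 1 c = c := by
  obtain ⟨h1, h2, h3, h4, h5, h6, h7, h8, h9, h10⟩ := hc
  ext <;> simp [dg, *]

/-- `θ` normalises `S` and acts by the scalars `a` on `Z`, `b` on `W / Z`. -/
structure Sc (D : CS T G) (θ : MulAut D.C) (a b : K) : Prop where
  nS : ∀ c, ∃ c', θ (D.ιC c) = D.ιC c'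
  z : ∀ t, θ (D.ιC (x4 T t)) = D.ιC (x4 T (a * t))
  w : ∀ t, ∃ r, θ (D.ιC (x6 T t)) = D.ιC (ww T (b * t) r)

variable {D : CS T G}

theorem ιC_inj : Function.Injective D.ιC := fun _ _ h => D.inj (congrArg Subtype.val h)

theorem Sc.w' {θ : MulAut D.C} {a b : K} (h : Sc D θ a b) (s r : K) :
    ∃ r', θ (D.ιC (ww T s r)) = D.ιC (ww T (b * s) r') := by
  obtain ⟨r', hr⟩ := h.w s
  exact ⟨r' + a * r, by rw [ww_eq, map_mul, map_mul, hr, h.z, ← map_mul, ww_x4]⟩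

theorem Sc.one : Sc D 1 1 1 :=
  ⟨fun c => ⟨c, rfl⟩, fun t => by simp, fun t => ⟨0, by rw [one_mul]; rfl⟩⟩

theorem Sc.mul {θ θ' : MulAut D.C} {a b a' b' : K} (h : Sc D θ a b) (h' : Sc D θ' a' b') :
    Sc D (θ * θ') (a * a') (b * b') where
  nS c := by
    obtain ⟨c', e⟩ := h'.nS c
    obtain ⟨c'', e'⟩ := h.nS c'
    exact ⟨c'', by rw [MulAut.mul_apply, e, e']⟩
  z t := by rw [MulAut.mul_apply, h'.z, h.z, mul_assoc]
  w t := by
    obtain ⟨r, e⟩ := h'.w t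
    obtain ⟨r', e'⟩ := h.w' (b' * t) r
    exact ⟨r', by rw [MulAut.mul_apply, e, e', mul_assoc]⟩

theorem Sc.pow {θ : MulAut D.C} {a b : K} (h : Sc D θ a b) (n : ℕ) :
    Sc D (θ ^ n) (a ^ n) (b ^ n) := by
  induction n with
  | zero => simpa using Sc.one
  | succ n ih => simpa only [pow_succ] using ih.mul h

theorem Sc.eq_one {a b : K} (h : Sc D 1 a b) : a = 1 ∧ b = 1 := by
  have h1 := congrArg Co.a4 (ιC_inj (h.z 1))
  obtain ⟨r, h2⟩ := h.w 1
  have h3 := congrArg Co.a6 (ιC_inj h2)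
  simp only [x4, x6, ww, mul_one] at h1 h3
  exact ⟨h1.symm, h3.symm⟩

variable [Finite G]

instance instFiniteAut : Finite (MulAut D.C) :=
  Finite.of_injective (fun θ : MulAut D.C => (θ : D.C → D.C)) DFunLike.coe_injective

theorem Sc.inv {θ : MulAut D.C} {a b : K} (h : Sc D θ a b) :
    ∃ a' b', a * a' = 1 ∧ b * b' = 1 ∧ Sc D θ⁻¹ a' b' := by
  obtain ⟨m, hm⟩ : ∃ m, orderOf θ = m + 1 := ⟨orderOf θ - 1, by have := orderOf_pos θ; omega⟩
  have h1 : θ ^ (m + 1) = 1 := by rw [← hm, pow_orderOf_eq_one]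
  have h2 := h.pow (m + 1)
  rw [h1] at h2
  refine ⟨a ^ m, b ^ m, by rw [← pow_succ', h2.eq_one.1], by rw [← pow_succ', h2.eq_one.2], ?_⟩
  rw [pow_succ] at h1
  rw [← eq_inv_of_mul_eq_one_left h1]
  exact h.pow m

variable (D) in
/-- the automorphisms that normalise `S` and are trivial on `Z` and on `W / Z` -/
def AA : Subgroup (MulAut D.C) where
  carrier := {θ | Sc D θ 1 1}
  one_mem' := Sc.one
  mul_mem' := fun h h' => by simpa using Sc.mul h h'
  inv_mem' := fun h => by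
    obtain ⟨a, b, ha, hb, h'⟩ := Sc.inv h
    rw [one_mul] at ha hb
    rwa [ha, hb] at h'

theorem isPGroup_AA (h : Rig D) : IsPGroup 2 (AA D) := by
  rintro ⟨θ, hθ⟩
  have hθ' : Sc D θ 1 1 := hθ
  obtain ⟨k, hk⟩ := h θ hθ'.nS (by simpa using hθ'.z) (by simpa using hθ'.w)
  exact ⟨k, Subtype.ext hk⟩

theorem Sc.mem_normalizer {θ : MulAut D.C} {a b : K} (h : Sc D θ a b) :
    θ ∈ normalizer (AA D : Set (MulAut D.C)) := by
  obtain ⟨a', b', ha, hb, h'⟩ := h.inv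
  refine mem_normalizer_fintype fun n hn => ?_
  have := (h.mul (show Sc D n 1 1 from hn)).mul h'
  rwa [mul_one, mul_one, ha, hb] at this

/-- An automorphism with the same scalars as `θ` has a power conjugate to `θ`. -/
theorem Sc.exists_conj (hr : Rig D) {θ η : MulAut D.C} {a b : K} (h : Sc D θ a b) (h' : Sc D η a b)
    {n : ℕ} (hn : Odd n) (hθ : θ ^ n = 1) : ∃ ψ ∈ AA D, ∃ e : ℕ, η ^ e = ψ * θ * ψ⁻¹ := by
  obtain ⟨a', b', ha, hb, hi⟩ := h.inv
  have h1 : η * θ⁻¹ ∈ AA D := by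
    have := h'.mul hi
    rwa [ha, hb] at this
  obtain ⟨k, hk⟩ := IsPGroup.iff_card.1 (isPGroup_AA hr)
  have hco : (orderOf θ).Coprime (Nat.card (AA D)) := by
    rw [hk]
    exact ((Nat.coprime_two_right.2 hn).of_dvd_left (orderOf_dvd_of_pow_eq_one hθ)).pow_right k
  obtain ⟨x, hx, c, hc, hcθ, e⟩ := H45.coprime_coset_conj (AA D) θ h.mem_normalizer hco _ h1
  rw [inv_mul_cancel_right] at e
  refine ⟨x⁻¹, inv_mem hx, (n + 1) ^ k, ?_⟩
  have e1 : c ^ (n + 1) ^ k = 1 := by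
    have : (⟨c, hc⟩ : AA D) ^ 2 ^ k = 1 := by rw [← hk, pow_card_eq_one']
    obtain ⟨m, hm⟩ := pow_dvd_pow_of_dvd hn.add_one.two_dvd k
    rw [hm, pow_mul, show c ^ 2 ^ k = 1 from congrArg Subtype.val this, one_pow]
  have e2 : ∀ j : ℕ, θ ^ (n + 1) ^ j = θ := fun j => by
    induction j with
    | zero => simp
    | succ j ih => rw [pow_succ', pow_mul, pow_succ θ n, hθ, one_mul, ih]
  have e3 : η = x⁻¹ * (c * θ) * x⁻¹⁻¹ := by rw [← e]; group
  rw [e3, conj_pow, Commute.mul_pow hcθ, e1, one_mul, e2]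

omit [Finite G] in
theorem aut_eq_one {θ : MulAut D.C} (h1 : ∀ c, θ (D.ιC c) = D.ιC c)
    (h2 : ∀ p, θ ⟨D.h0 p, D.h0_mem p⟩ = ⟨D.h0 p, D.h0_mem p⟩)
    (h3 : θ ⟨D.n8, D.n8_mem⟩ = ⟨D.n8, D.n8_mem⟩) : θ = 1 := by
  ext ⟨x, hx⟩ : 1
  rw [MulAut.one_apply]
  induction hx using closure_induction with
  | mem x hx =>
    rcases hx with (⟨c, rfl⟩ | ⟨p, rfl⟩) | rfl
    · exact h1 c
    · exact h2 p
    · exact h3
  | one => exact map_one θ
  | mul x y hx hy ihx ihy =>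
    exact (map_mul θ ⟨x, hx⟩ ⟨y, hy⟩).trans (by rw [ihx, ihy])
  | inv x hx ih => exact (map_inv θ ⟨x, hx⟩).trans (by rw [ih])

omit [Finite G] in
variable (D) in
/-- the coordinates twisted by a diagonal automorphism -/
def tw (α : Kˣ) : CS T G where
  ι := D.ι.comp (MonoidHom.mk' (dg T α 1) (dg_mul (α : K) 1))
  inj := fun c d h => by
    have h' : dg T α 1 c = dg T α 1 d := D.inj h
    have := congrArg (dg T ((α⁻¹ : Kˣ) : K) 1) h'
    simpa [dg_dg, dg_one] using this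
  n8 := D.n8
  h0 := D.h0
  h0_conj := fun p c => by
    simp only [MonoidHom.comp_apply, MonoidHom.mk'_apply, D.h0_conj, dg_dg, mul_comm]
  n8_sq := D.n8_sq
  n8_conj := fun c hc => by
    simp only [MonoidHom.comp_apply, MonoidHom.mk'_apply]
    rw [D.n8_conj _ (by simp [mem_sQ, dg, hc.1, hc.2]), dg_nu8]
  n8_h0 := D.n8_h0
  rank8 := fun u hu h1 => by
    obtain ⟨u', hu', u'', hu'', p, h⟩ := D.rank8 u hu h1
    refine ⟨u', hu', u'', hu'', p, ?_⟩
    simp only [MonoidHom.comp_apply, MonoidHom.mk'_apply]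
    rwa [dg_u8 _ hu, dg_u8 _ hu', dg_u8 _ hu'']

omit [Finite G] in
theorem tw_C (α : Kˣ) : (tw D α).C = D.C := by
  have : Set.range (tw D α).ι = Set.range D.ι := by
    ext x
    constructor
    · rintro ⟨c, rfl⟩
      exact ⟨_, rfl⟩
    · rintro ⟨c, rfl⟩
      refine ⟨dg T (α⁻¹ : Kˣ) 1 c, ?_⟩
      simp [tw, dg_dg, dg_one]
  unfold CS.C
  rw [this]
  rfl

/-- conjugation by an element of the normalizer -/
abbrev kap (D : CS T G) := D.C.normalizerMonoidHom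

omit [Finite G] in
theorem kap_coe (g : normalizer (D.C : Set G)) (y : D.C) : (kap D g y : G) = g * y * g⁻¹ := rfl

theorem exists_sc {f : K →+ K} (L : Loc D) (hs : Sp D f) (a b : Kˣ) :
    ∃ g, Sc D (kap D g) a b := by
  obtain ⟨g, hg1, hg2⟩ := hs.tor a
  have hw : ∀ s r, ∃ r', g * D.ι (ww T s r) * g⁻¹ = D.ι (ww T ((a⁻¹ : Kˣ) * s) r') := by
    intro s r
    have e := hg2 ((a⁻¹ : Kˣ) * s)
    rw [Units.mul_inv_cancel_left] at e
    refine ⟨f ((a⁻¹ : Kˣ) * s) + a * (r - f s), ?_⟩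
    rw [← ww_x4, map_mul, ← e, ← hg1, show ww T s r = ww T s (f s) * x4 T (r - f s) by
      rw [ww_x4, add_sub_cancel], map_mul]
    group
  have hZ : g ∈ normalizer (D.im (sZ T) : Set G) := mem_normalizer_fintype (by
    rintro _ ⟨c, hc, rfl⟩
    rw [eq_x4 hc, hg1]
    exact ⟨_, x4_mem _, rfl⟩)
  have hW : g ∈ normalizer (D.im (sW T) : Set G) := mem_normalizer_fintype (by
    rintro _ ⟨c, hc, rfl⟩
    obtain ⟨r, hr⟩ := hw c.a6 c.a4
    rw [eq_ww hc, hr]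
    exact ⟨_, ww_mem _ _, rfl⟩)
  have hS := L.bh.nZW g hZ hW
  rw [L.bh.nZ] at hZ
  have h1 : Sc D (kap D ⟨g, hZ⟩) a (a⁻¹ : Kˣ) := by
    refine ⟨fun c => ?_, fun t => Subtype.ext (hg1 t), fun t => ?_⟩
    · obtain ⟨c', hc'⟩ := (mem_normalizer_iff.1 hS (D.ι c)).1 ⟨c, rfl⟩
      exact ⟨c', Subtype.ext hc'.symm⟩
    · obtain ⟨r, hr⟩ := hw t 0
      exact ⟨r, Subtype.ext hr⟩
  obtain ⟨p, hp, -⟩ := L.bc.T0_fst (a * b)⁻¹
  have h4 : chi4 T p.1.1 p.1.2 = 1 := p.2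
  have h2 : Sc D (kap D ⟨D.h0 p, le_normalizer (D.h0_mem p)⟩) 1 (a * b : Kˣ) := by
    refine ⟨fun c => ⟨_, Subtype.ext (D.h0_conj p c)⟩, fun t => Subtype.ext ?_,
      fun t => ⟨0, Subtype.ext ?_⟩⟩
    · refine (D.h0_conj p _).trans ?_
      rw [dg_x4, h4]; rfl
    · refine (D.h0_conj p _).trans ?_
      have : chi6 T p.1.1 p.1.2 = (a * b : Kˣ) := by
        have e : (p.1.1 : K) * chi6 T p.1.1 p.1.2 = 1 := by rw [← h4, chi4, chi6]; ring
        rw [hp] at e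
        rw [← Units.mul_inv_cancel_left (a * b) (chi6 T _ _), hp, e, mul_one]
      rw [dg_x6, this]; rfl
  have := h1.mul h2
  rw [← map_mul, mul_one, Units.val_mul, Units.inv_mul_cancel_left] at this
  exact ⟨_, this⟩

omit [Finite G] in
theorem w8_mul (p p' : Kˣ × Kˣ) : w8 T (p * p') = w8 T p * w8 T p' := by
  ext
  · simp only [w8, Prod.fst_mul, Prod.snd_mul, map_mul, Units.val_mul, Units.val_pow_eq_pow_val]
    ring
  · simp only [w8, Prod.snd_mul, mul_inv]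

omit [Finite G] in
theorem w8_T0 (p : T0 T) : w8 T p = (p⁻¹ : T0 T) := by
  obtain ⟨⟨a, b⟩, h⟩ := p
  have h4 : chi4 T a b = 1 := h
  have h1 : (a : K) ^ 2 * (b ^ 2 * T.σ b) = 1 := by
    refine eq_one_of_pw (T := T) (i := 2) (j := 1) (by simp) 1 (by norm_num) ?_
    simp only [zpow_ofNat, pow_one, map_mul, map_pow, T.sq]
    rw [chi4] at h4
    linear_combination (a ^ 2 * T.σ a * (b ^ 3 * T.σ b ^ 2) + 1) * h4
  ext
  · simp only [w8, Units.val_mul, Units.val_pow_eq_pow_val, Units.coe_map, MonoidHom.coe_coe,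
      coe_inv, Prod.fst_inv]
    refine eq_inv_of_mul_eq_one_left ?_ |>.trans (Units.val_inv_eq_inv_val a).symm
    linear_combination h1
  · rfl

/-- Assembly of the torus from an element `x` acting as the diagonal automorphism. -/
theorem exists_tor [Finite K] (hb : BC D) {ω : Kˣ} (hω : ∀ a, a ∈ zpowers ω) {x : G}
    (hx : x ^ orderOf ω = 1) (h1 : ∀ c, x * D.ι c * x⁻¹ = D.ι (dg T ω 1 c))
    (h2 : ∀ p, Commute x (D.h0 p)) (h3 : Commute x D.n8) : ∃ h, Tor D h := by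
  let X : Kˣ →* G := monoidHomOfForallMemZpowers hω (orderOf_dvd_of_pow_eq_one hx)
  have hX : ∀ a, ∃ k : ℕ, a = ω ^ k ∧ X a = x ^ k := fun a => by
    obtain ⟨k, rfl⟩ := (mem_powers_iff_mem_zpowers.2 (hω a))
    exact ⟨k, rfl, by simp [X]⟩
  have e1 : ∀ a c, X a * D.ι c * (X a)⁻¹ = D.ι (dg T a 1 c) := fun a c => by
    obtain ⟨k, rfl, e⟩ := hX a
    rw [e]
    clear e
    induction k with
    | zero => simp [dg_one]
    | succ k ih =>
      rw [pow_succ', pow_succ', Units.val_mul, ← one_mul (1 : K), ← dg_dg, ← h1, ← ih]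
      group
  have e2 : ∀ a p, Commute (X a) (D.h0 p) := fun a p => by
    obtain ⟨k, -, e⟩ := hX a
    exact e ▸ (h2 p).pow_left k
  have e3 : ∀ a, Commute (X a) D.n8 := fun a => by
    obtain ⟨k, -, e⟩ := hX a
    exact e ▸ h3.pow_left k
  let π : T0 T ≃* Kˣ := MulEquiv.ofBijective ((MonoidHom.snd _ _).comp (T0 T).subtype)
    ((Function.bijective_iff_existsUnique _).2 hb.T0_snd)
  have hπ : ∀ b, (π.symm b).1.2 = b := fun b => π.apply_symm_apply b
  have hπ' : ∀ p : T0 T, π.symm p.1.2 = p := fun p => π.symm_apply_apply p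
  let h : Kˣ × Kˣ →* G := MonoidHom.mk' (fun p => X (p.1 * ((π.symm p.2).1.1)⁻¹) * D.h0 (π.symm p.2))
    fun p p' => by
      simp only [Prod.fst_mul, Prod.snd_mul, map_mul π.symm, coe_mul, map_mul D.h0]
      rw [mul_inv, mul_mul_mul_comm, map_mul X, (e2 _ _).mul_mul_mul_comm]
  have hh : ∀ p, h p = X (p.1 * ((π.symm p.2).1.1)⁻¹) * D.h0 (π.symm p.2) := fun _ => rfl
  have f1 : ∀ p : T0 T, h p = D.h0 p := fun p => by rw [hh, hπ', mul_inv_cancel, map_one, one_mul]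
  have f2 : ∀ a, h (a, 1) = X a := fun a => by simp [hh]
  refine ⟨h, f1, fun p c => ?_, fun p => ?_⟩
  · rw [hh, mul_inv_rev, ← mul_assoc, mul_assoc (X _), mul_assoc (X _), D.h0_conj, e1, dg_dg, hπ,
      one_mul, ← Units.val_mul, inv_mul_cancel_right]
  · obtain ⟨a, p0, rfl⟩ : ∃ (a : Kˣ) (p0 : T0 T), p = (a, 1) * p0.1 :=
      ⟨p.1 * ((π.symm p.2).1.1)⁻¹, π.symm p.2, by ext1 <;> simp [hπ]⟩
    rw [w8_mul, w8_T0, map_mul, map_mul, f1, f1, show w8 T (a, 1) = (a, 1) by simp [w8], f2, map_inv,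
      ← D.n8_h0, ← mul_assoc, ← (e3 a).eq]
    group

theorem jobTorA : JobTorA.{u, v} := by
  intro hBC hEq K _ _ _ T G _ _ D f L hs
  obtain ⟨ω, hω⟩ := IsCyclic.exists_generator (α := Kˣ)
  have hn : Odd (orderOf ω) := by
    have := Fintype.ofFinite K
    classical
    rw [orderOf_eq_card_of_forall_mem_zpowers hω, Nat.card_eq_fintype_card, Fintype.card_units]
    have h1 := FiniteField.even_card_of_char_two (ringChar.eq K 2)
    have h2 : 0 < Fintype.card K := Fintype.card_pos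
    exact Nat.odd_iff.2 (by omega)
  obtain ⟨-, e, he1, he2, he3⟩ := hEq K T G G D (tw D ω) L.bc (hBC K T G _)
  let θ : MulAut D.C := e.trans (MulEquiv.subgroupCongr (tw_C ω))
  have t1 : ∀ c, θ (D.ιC c) = D.ιC (dg T ω 1 c) := fun c =>
    Subtype.ext (congrArg Subtype.val (he1 c) :)
  have t2 : ∀ p, θ ⟨D.h0 p, D.h0_mem p⟩ = ⟨D.h0 p, D.h0_mem p⟩ := fun p =>
    Subtype.ext (congrArg Subtype.val (he2 p) :)
  have t3 : θ ⟨D.n8, D.n8_mem⟩ = ⟨D.n8, D.n8_mem⟩ := Subtype.ext (congrArg Subtype.val he3 :)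
  have hθ : θ ^ orderOf ω = 1 := by
    have : ∀ (k : ℕ) c, (θ ^ k) (D.ιC c) = D.ιC (dg T (ω ^ k : Kˣ) 1 c) := fun k => by
      induction k with
      | zero => simp [dg_one]
      | succ k ih => intro c; rw [pow_succ, MulAut.mul_apply, t1, ih, dg_dg, pow_succ]; simp
    have fx : ∀ y, θ y = y → ∀ k : ℕ, (θ ^ k) y = y := fun y hy k => by
      induction k with
      | zero => rfl
      | succ k ih => rw [pow_succ, MulAut.mul_apply, hy, ih]
    exact aut_eq_one (fun c => by rw [this, pow_orderOf_eq_one]; simp [dg_one])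
      (fun p => fx _ (t2 p) _) (fx _ t3 _)
  have hsc : Sc D θ (chi4 T ω 1) (chi6 T ω 1) :=
    ⟨fun c => ⟨_, t1 c⟩, fun t => by rw [t1, dg_x4], fun t => ⟨0, by rw [t1, dg_x6]⟩⟩
  obtain ⟨g, hg⟩ := exists_sc L hs (Units.mk0 (chi4 T ω 1) (by simp [chi4]))
    (Units.mk0 (chi6 T ω 1) (by simp [chi6]))
  obtain ⟨ψ, hψ, k, hk⟩ := hsc.exists_conj L.rig hg hn hθ
  have hψ' : Sc D ψ 1 1 := hψ
  rw [← map_pow] at hk
  have h2 : (g ^ k) ^ (2 * orderOf ω) = 1 := by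
    have h0 : kap D ((g ^ k) ^ orderOf ω) = 1 := by rw [map_pow, hk, conj_pow, hθ]; simp
    obtain ⟨c, hc, hc'⟩ := L.bh.cenQ ((g ^ k) ^ orderOf ω : normalizer (D.C : Set G)) fun c _ => by
      have := kap_coe ((g ^ k) ^ orderOf ω) (D.ιC c)
      rw [h0] at this
      exact mul_inv_eq_iff_eq_mul.1 this.symm
    refine Subtype.ext ?_
    rw [pow_mul', coe_pow, ← hc', eq_x4 hc, sq, ← map_mul, x4_sq, map_one]; rfl
  obtain ⟨x, hx1, hx2⟩ : ∃ x : normalizer (D.C : Set G), x ^ orderOf ω = 1 ∧ kap D x = ψ * θ * ψ⁻¹ := by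
    refine ⟨(g ^ k) ^ (orderOf ω + 1), ?_, by rw [map_pow, hk, conj_pow, pow_succ θ, hθ, one_mul]⟩
    obtain ⟨m, hm⟩ := hn.add_one.two_dvd
    rw [← pow_mul, hm, mul_right_comm, pow_mul, h2, one_pow]
  have hx : ∀ y, (x : G) * ψ y * (x : G)⁻¹ = ψ (θ y) := fun y => by
    refine (kap_coe x (ψ y)).symm.trans ?_
    rw [hx2]; simp
  have hi : Function.Injective (D.C.subtype.comp ψ.toMonoidHom) :=
    Subtype.val_injective.comp ψ.injective
  obtain ⟨h, hh⟩ := exists_tor (D := D.map _ hi) (hBC K T G _) hω (x := x)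
    (congrArg Subtype.val hx1) (fun c => (hx (D.ιC c)).trans (by rw [t1]; rfl))
    (fun p => mul_inv_eq_iff_eq_mul.1 ((hx ⟨D.h0 p, D.h0_mem p⟩).trans (by rw [t2]; rfl)))
    (mul_inv_eq_iff_eq_mul.1 ((hx ⟨D.n8, D.n8_mem⟩).trans (by rw [t3]; rfl)))
  refine ⟨D.map _ hi, h, ?_, ?_, hh⟩
  · rw [CS.map_C, MonoidHom.range_comp, MonoidHom.range_eq_top.2 ψ.surjective, ← MonoidHom.range_eq_map,
      range_subtype]
  · have := congrArg Subtype.val (hψ'.z 1)
    rwa [one_mul] at this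

end H62.Par
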