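import Cfsg.Agent.H57.Singer
import Cfsg.Agent.H27.Zsigmondy

/-! Abelian subgroups of `GL_n(q)` of order `q ^ n - 1`. -/

set_option autoImplicit false

namespace H62

section
variable {F V : Type*} [Field F] [Fintype F] [AddCommGroup V] [Module F V] [Finite V]

theorem card_modEq_fix {r : ℕ} [Fact r.Prime] {T : Module.End F V} (hT : T ^ r = 1)
    {W : Submodule F V} (hW : ∀ x ∈ W, T x ∈ W) :
    Nat.card W ≡ Nat.card ↥(W ⊓ LinearMap.ker (T - 1)) [MOD r] := by
  classical
  have := Fintype.ofFinite W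
  let f : Function.End W := fun x => ⟨T x, hW x x.2⟩
  have hf : ∀ n (x : W), ((f ^ n) x : V) = (T ^ n) x := by
    intro n
    induction n with
    | zero => intro x; rfl
    | succ n ih => intro x; rw [pow_succ, pow_succ]; exact ih (f x)
  have h1 : f ^ r ^ 1 = 1 := by
    funext x
    apply Subtype.ext
    rw [pow_one, hf, hT]; rfl
  have h2 := Equiv.Perm.card_fixedPoints_modEq h1
  rw [← Nat.card_eq_fintype_card, ← Nat.card_eq_fintype_card] at h2
  convert h2 using 1
  refine Nat.card_congr ⟨fun x => ⟨⟨x, x.2.1⟩, Subtype.ext ?_⟩,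
    fun x => ⟨x.1.1, x.1.2, ?_⟩, fun _ => rfl, fun _ => rfl⟩
  · have := x.2.2
    rw [SetLike.mem_coe, LinearMap.mem_ker, LinearMap.sub_apply, sub_eq_zero] at this
    exact this
  · rw [SetLike.mem_coe, LinearMap.mem_ker, LinearMap.sub_apply, sub_eq_zero]
    exact congrArg Subtype.val x.2

/-- An element whose order is a primitive prime divisor of `q ^ n - 1` is irreducible. -/
theorem irred_of_ppd {r : ℕ} (hr : r.Prime)
    (hd : r ∣ Fintype.card F ^ Module.finrank F V - 1) (hn : 0 < Module.finrank F V)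
    (hz : ∀ k : ℕ, 0 < k → k < Module.finrank F V → ¬ r ∣ Fintype.card F ^ k - 1)
    {T : Module.End F V} (hT : T ^ r = 1) (hT1 : T ≠ 1) {W : Submodule F V}
    (hW : ∀ x ∈ W, T x ∈ W) : W = ⊥ ∨ W = ⊤ := by
  have : Fact r.Prime := ⟨hr⟩
  have : Module.Finite F V := Module.Finite.of_finite
  set q := Fintype.card F with hq
  have hq1 : 1 ≤ q := Fintype.card_pos
  have hcop : q.Coprime r := by
    rw [Nat.coprime_comm, Nat.Prime.coprime_iff_not_dvd hr]
    intro h
    have h1 : r ∣ q ^ Module.finrank F V := dvd_pow h hn.ne'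
    have h2 := Nat.dvd_sub h1 hd
    rw [Nat.sub_sub_self (Nat.one_le_pow _ _ hq1)] at h2
    exact hr.one_lt.ne' (Nat.dvd_one.mp h2)
  have key : ∀ W : Submodule F V, (∀ x ∈ W, T x ∈ W) →
      r ∣ q ^ (Module.finrank F W - Module.finrank F ↥(W ⊓ LinearMap.ker (T - 1))) - 1 := by
    intro W hW
    have h1 := card_modEq_fix hT hW
    rw [Module.natCard_eq_pow_finrank (K := F), Module.natCard_eq_pow_finrank (K := F)
      (V := ↥(W ⊓ LinearMap.ker (T - 1))), Nat.card_eq_fintype_card, ← hq] at h1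
    obtain ⟨d, hd⟩ := Nat.exists_eq_add_of_le
      (Submodule.finrank_mono (inf_le_left : W ⊓ LinearMap.ker (T - 1) ≤ W))
    rw [hd] at h1 ⊢
    rw [Nat.add_sub_cancel_left]
    refine (Nat.modEq_iff_dvd' (Nat.one_le_pow _ _ hq1)).mp ?_
    refine Nat.ModEq.cancel_left_of_coprime (c := q ^ Module.finrank F ↥(W ⊓ LinearMap.ker (T - 1)))
      (hcop.pow_left _).symm ?_
    rw [← pow_add, mul_one]
    exact h1.symm
  have hfix : LinearMap.ker (T - 1) = ⊥ := by
    have h1 := key ⊤ fun _ _ => trivial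
    rw [top_inf_eq, finrank_top] at h1
    have h2 : LinearMap.ker (T - 1) ≠ ⊤ := fun h => hT1 (sub_eq_zero.mp (LinearMap.ker_eq_top.mp h))
    have h3 := Submodule.finrank_lt h2
    by_contra h4
    have h5 : 0 < Module.finrank F (LinearMap.ker (T - 1)) :=
      Nat.pos_of_ne_zero fun h => h4 (Submodule.finrank_eq_zero.mp h)
    exact hz _ (by omega) (by omega) h1
  by_contra hc
  push Not at hc
  have h1 := key W hW
  rw [hfix, inf_bot_eq, finrank_bot, Nat.sub_zero] at h1
  exact hz _ (Nat.pos_of_ne_zero fun h => hc.1 (Submodule.finrank_eq_zero.mp h))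
    (Submodule.finrank_lt hc.2) h1

end

theorem prime_of_succ_eq_two_pow {q a : ℕ} (hq : IsPrimePow q) (h : q + 1 = 2 ^ a) : q.Prime := by
  obtain ⟨p, k, hp, hk, rfl⟩ := (isPrimePow_nat_iff _).mp hq
  have hp2 := hp.two_le
  have hpk : p ≤ p ^ k := Nat.le_self_pow hk.ne' p
  have ha : 2 ≤ a := by
    by_contra h'
    have : a = 0 ∨ a = 1 := by omega
    rcases this with rfl | rfl <;> simp at h <;> omega
  obtain ⟨b, rfl⟩ := Nat.exists_eq_add_of_le ha
  rcases Nat.even_or_odd k with ⟨m, rfl⟩ | hk'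
  · exfalso
    have h1 : (p ^ m * p ^ m + 1) % 4 = 0 := by
      rw [← pow_add, h, pow_add]; omega
    have h2 : ∀ x : ℕ, (x * x + 1) % 4 ≠ 0 := by
      intro x
      have : x % 4 = 0 ∨ x % 4 = 1 ∨ x % 4 = 2 ∨ x % 4 = 3 := by omega
      rcases this with h | h | h | h <;> simp [Nat.add_mod, Nat.mul_mod, h]
    exact h2 _ h1
  · by_cases hk1 : k = 1
    · rw [hk1, pow_one]; exact hp
    exfalso
    obtain ⟨r, hr, hd, hz⟩ := H27.zsigmondy p (2 * k) hp.one_lt (by omega)
      (by
        rintro ⟨rfl, h6⟩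
        have : k = 3 := by omega
        subst this
        rw [pow_add] at h
        omega)
      (by omega)
    have e : p ^ (2 * k) - 1 = (p ^ k + 1) * (p ^ k - 1) := by
      rw [mul_comm 2, pow_mul, ← Nat.sq_sub_sq, one_pow]
    rw [e] at hd
    rcases (Nat.Prime.dvd_mul hr).mp hd with h1 | h1
    · rw [h] at h1
      have h2 : r = 2 := (Nat.prime_dvd_prime_iff_eq hr Nat.prime_two).mp (hr.dvd_of_dvd_pow h1)
      subst h2
      refine hz 1 one_pos (by omega) ?_
      have h3 : (p ^ k + 1) % 2 = 0 := by rw [h, pow_add]; omega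
      rcases hp.eq_two_or_odd with rfl | h4
      · obtain ⟨j, rfl⟩ := Nat.exists_eq_succ_of_ne_zero hk.ne'
        rw [pow_succ] at h3
        omega
      · rw [pow_one]; omega
    · exact hz k hk (by omega) h1

theorem conj_singer_of_abelian {F K : Type*} [Field F] [Fintype F] [Field K] [Fintype K] [Algebra F K]
    {r : ℕ} (hr : r.Prime) (hd : r ∣ Fintype.card F ^ Module.finrank F K - 1)
    (hz : ∀ k : ℕ, 0 < k → k < Module.finrank F K → ¬ r ∣ Fintype.card F ^ k - 1)
    (U : Subgroup (Module.End F K)ˣ) (hU : IsMulCommutative U)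
    (hcard : Nat.card U = Fintype.card K - 1) :
    ∃ g : (Module.End F K)ˣ, U.map (MulAut.conj g).toMonoidHom = (H57.singerHom F K).range := by
  classical
  have : Fact r.Prime := ⟨hr⟩
  have hfinE : Finite (Module.End F K) := Finite.of_injective _ DFunLike.coe_injective
  have hK : Fintype.card K = Fintype.card F ^ Module.finrank F K := Module.card_eq_pow_finrank
  obtain ⟨u, hu⟩ := exists_prime_orderOf_dvd_card' (G := U) r (by rw [hcard, hK]; exact hd)
  let T : Module.End F K := ((u : (Module.End F K)ˣ) : Module.End F K)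
  have hT : T ^ r = 1 := by
    have := congrArg (fun x : U => ((x : (Module.End F K)ˣ) : Module.End F K)) (pow_orderOf_eq_one u)
    simpa [hu] using this
  have hT1 : T ≠ 1 := fun h => by
    have : u = 1 := Subtype.ext (Units.ext h)
    rw [this, orderOf_one] at hu
    exact hr.one_lt.ne hu
  let s : Set (Module.End F K) := Units.val '' (U : Set (Module.End F K)ˣ)
  have hs : ∀ a ∈ s, ∀ b ∈ s, a * b = b * a := by
    rintro _ ⟨a, ha, rfl⟩ _ ⟨b, hb, rfl⟩
    exact congrArg (fun x : U => ((x : (Module.End F K)ˣ) : Module.End F K))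
      (hU.is_comm.comm ⟨a, ha⟩ ⟨b, hb⟩)
  let A := Algebra.adjoin F s
  letI : CommRing A := Algebra.adjoinCommRingOfComm F hs
  have hTA : T ∈ A := Algebra.subset_adjoin ⟨u, u.2, rfl⟩
  have hinj : ∀ a : A, a ≠ 0 → Function.Injective (a : Module.End F K) := by
    intro a ha
    rw [← LinearMap.ker_eq_bot]
    refine (irred_of_ppd hr hd Module.finrank_pos hz hT hT1 fun x hx => ?_).resolve_right fun h =>
      ha (Subtype.ext (LinearMap.ker_eq_top.mp h))
    rw [LinearMap.mem_ker] at hx ⊢
    have := congrArg Subtype.val (mul_comm a ⟨T, hTA⟩)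
    have h2 := LinearMap.congr_fun this x
    change (a : Module.End F K) (T x) = T ((a : Module.End F K) x) at h2
    rw [h2, hx, map_zero]
  have : NoZeroDivisors A := ⟨fun {a b} h => by
    by_contra hc
    push Not at hc
    apply hc.2
    apply Subtype.ext
    ext x
    apply hinj a hc.1
    have := LinearMap.congr_fun (congrArg Subtype.val h) x
    simpa using this⟩
  have : IsDomain A := NoZeroDivisors.to_isDomain A
  letI : Field A := (Finite.isField_of_domain A).toField
  let ev : A →ₗ[F] K := (LinearMap.applyₗ (1 : K)).comp A.val.toLinearMap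
  have hev : Function.Injective ev := by
    rw [injective_iff_map_eq_zero]
    intro a ha
    by_contra h
    exact one_ne_zero (hinj a h (ha.trans (map_zero _).symm))
  -- `U` fills the nonzero elements of `A`
  let ι : U → {a : A // a ≠ 0} := fun x =>
    ⟨⟨_, Algebra.subset_adjoin ⟨x, x.2, rfl⟩⟩, fun h => x.1.ne_zero (congrArg Subtype.val h)⟩
  have hι : Function.Injective ι := fun x y h =>
    Subtype.ext (Units.ext (congrArg (fun z : {a : A // a ≠ 0} => (z.1 : Module.End F K)) h))
  have hA1 : Nat.card {a : A // a ≠ 0} = Nat.card A - 1 := by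
    rw [← Nat.card_units]
    exact (Nat.card_congr unitsEquivNeZero).symm
  have hle : Nat.card A ≤ Nat.card K := Nat.card_le_card_of_injective _ hev
  have hge := Nat.card_le_card_of_injective _ hι
  rw [hcard, hA1, ← Nat.card_eq_fintype_card] at hge
  have hApos : 0 < Nat.card A := Nat.card_pos
  have hKpos : 0 < Nat.card K := Nat.card_pos
  have hAK : Nat.card A = Nat.card K := by omega
  have hevb : Function.Bijective ev := (Nat.bijective_iff_injective_and_card _).mpr ⟨hev, hAK⟩
  let e : A ≃ₗ[F] K := LinearEquiv.ofBijective ev hevb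
  obtain ⟨φ⟩ := FiniteField.nonempty_algHom_of_finrank_dvd (F := F) (K := A) (L := K)
    (dvd_of_eq e.finrank_eq)
  have hφ : Function.Bijective φ := (Nat.bijective_iff_injective_and_card _).mpr ⟨φ.injective, hAK⟩
  let ψ : A ≃ₗ[F] K := LinearEquiv.ofBijective φ.toLinearMap hφ
  let g : K ≃ₗ[F] K := e.symm.trans ψ
  let g' : (Module.End F K)ˣ := LinearMap.GeneralLinearGroup.ofLinearEquiv g
  have hg : ∀ a : A, ∀ x, g ((a : Module.End F K) (g.symm x)) = φ a * x := by
    intro a x
    obtain ⟨b, rfl⟩ := hφ.2 x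
    have h1 : g.symm (φ b) = e b := by
      rw [LinearEquiv.symm_apply_eq]
      change φ b = ψ (e.symm (e b))
      rw [e.symm_apply_apply]; rfl
    rw [h1, ← map_mul]
    change ψ (e.symm (e (a * b))) = _
    rw [e.symm_apply_apply]; rfl
  refine ⟨g', Subgroup.eq_of_le_of_card_ge ?_ ?_⟩
  · rintro _ ⟨x, hx, rfl⟩
    refine ⟨Units.mk0 (φ (ι ⟨x, hx⟩).1) ((map_ne_zero φ).mpr (ι ⟨x, hx⟩).2),
      Units.ext (LinearMap.ext fun y => ?_)⟩
    exact (hg (ι ⟨x, hx⟩).1 y).symm
  · rw [Subgroup.card_map_of_injective (MulAut.conj g').injective, H57.card_singer, hcard,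
      Nat.card_units, Nat.card_eq_fintype_card]

end H62
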