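import Cfsg.Agent.H91.VCSpec

/-! VC tower (row S4070), slot IMP: orbits with small stabilisers on an imprimitive module. -/

set_option autoImplicit false

namespace H62.VCImp

open H33.Solv H91.VC Subgroup MulAction

variable {G V : Type} [Group G] [AddCommGroup V] [DistribMulAction G V] {e : V →+ V}
  {H : Subgroup G}

/-- The component of a sum of translates. -/
theorem comp [Fintype (G ⧸ H)] (m : Imp e H) (w : G ⧸ H → e.range) (x : G) :
    e (x⁻¹ • ∑ ω : G ⧸ H, ω.out • (w ω : V)) = (x⁻¹ * (x : G ⧸ H).out) • (w x : V) := by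
  classical
  have hfix : ∀ x : e.range, e x = x := by rintro ⟨_, v, rfl⟩; exact m.idem v
  rw [Finset.smul_sum, map_sum, Finset.sum_eq_single (x : G ⧸ H) (fun ω' _ hne => ?_) (by simp),
    smul_smul, ← m.comm _ (QuotientGroup.eq.1 (QuotientGroup.out_eq' _).symm), hfix]
  rw [smul_smul, ← hfix, m.orth]
  exact fun h => hne (ω'.out_eq'.symm.trans (QuotientGroup.eq.2 h).symm)

theorem hmem (g : G) (ω : G ⧸ H) : (g • ω).out⁻¹ * g * ω.out ∈ H := by
  rw [mul_assoc, ← QuotientGroup.eq, QuotientGroup.out_eq', ← smul_eq_mul,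
    ← MulAction.Quotient.smul_mk, QuotientGroup.out_eq']

theorem key [Fintype (G ⧸ H)] (m : Imp e H) {w w' : G ⧸ H → e.range} {g : G}
    (hg : g • ∑ ω : G ⧸ H, ω.out • (w ω : V) = ∑ ω : G ⧸ H, ω.out • (w' ω : V)) (ω : G ⧸ H) :
    ((g • ω).out⁻¹ * g * ω.out) • (w ω : V) = w' (g • ω) := by
  have e1 := comp m w' (g • ω).out
  have e2 := comp m w (g⁻¹ * (g • ω).out)
  have e3 : ((g⁻¹ * (g • ω).out : G) : G ⧸ H) = ω := by
    rw [← smul_eq_mul, ← MulAction.Quotient.smul_mk, QuotientGroup.out_eq', inv_smul_smul]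
  rw [QuotientGroup.out_eq', inv_mul_cancel, one_smul] at e1
  rw [e3, mul_inv_rev, inv_inv, mul_smul, hg, e1] at e2
  exact e2.symm

theorem jobIMP : JobIMP := by
  intro G V _ _ _ _ _ _ e H m c d c' t hO hC
  classical
  let _ := subAct _ (inv_range m.comm)
  obtain ⟨u, hu1, hu2⟩ := hO
  obtain ⟨χ, c1, c2⟩ := hC
  have := Fintype.ofFinite (G ⧸ H)
  let v : ℕ → V := fun j => ∑ ω : G ⧸ H, ω.out • (u (χ j ω) : V)
  have col : ∀ j < c', ∀ k < c', ∀ g : G, g • v j = v k → ∀ ω, χ j ω = χ k (g • ω) :=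
    fun j hj k hk g hg ω => hu2 _ ((c1 j hj).1 _) _ ((c1 k hk).1 _) ⟨_, hmem g ω⟩
      (Subtype.ext (key m (w := fun ω => u (χ j ω)) (w' := fun ω => u (χ k ω)) hg ω))
  refine ⟨v, fun j hj a ha => ?_, fun j hj k hk g hg =>
    (c2 k hk j hj g fun ω => (col j hj k hk g hg ω).symm).symm⟩
  have hst : stabilizer G (v j) ≤ cst G (χ j) := fun g hg ω => (col j hj j hj g hg ω).symm
  have hX : Triv (G ⧸ H) (ds (stabilizer G (v j)) t) := (c1 j hj).2.mono (ds_mono hst t)
  rw [ds_add] at ha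
  have h6 := closure_eq_top m.irr (B := e.range)
    (fun e' => m.ne (AddMonoidHom.range_eq_bot_iff.1 e')) (U := fix V a) fun k x hx => by
      obtain ⟨s, hs⟩ := QuotientGroup.mk_out_eq_mul H k
      have hc : ∀ y ∈ ds (stabilizer G (v j)) t, (k : G ⧸ H).out⁻¹ * y * (k : G ⧸ H).out⁻¹⁻¹ ∈
          (stabilizer H (u (χ j k))).map H.subtype := fun y hy => by
        have h1 := hmem y (k : G ⧸ H)
        have h2 := key m (w := fun ω => u (χ j ω)) (w' := fun ω => u (χ j ω))
          (ds_le _ t hy) (k : G ⧸ H)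
        rw [hX y hy] at h1 h2
        rw [inv_inv]
        exact ⟨⟨_, h1⟩, Subtype.ext h2, rfl⟩
      have h3 := mem_ds_conj _ hc ha
      rw [← ds_map] at h3
      obtain ⟨b, hb, eb⟩ := h3
      have h7 := congrArg Subtype.val (hu1 _ ((c1 j hj).1 _) b hb
        ⟨_, inv_range m.comm s⁻¹ x hx⟩)
      change (H.subtype b) • ((s⁻¹ : H) : G) • x = ((s⁻¹ : H) : G) • x at h7
      rw [eb, inv_inv, hs, smul_smul, Subgroup.coe_inv, mul_inv_rev, mul_assoc, mul_assoc, mul_assoc,
        mul_inv_cancel_right, mul_smul, smul_left_cancel_iff, mul_smul, inv_smul_eq_iff,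
        mul_smul] at h7
      exact h7
  exact fun w => show w ∈ fix V a from h6 ▸ trivial

end H62.VCImp
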