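import Cfsg.Agent.H91.VCSpec
import Cfsg.Agent.H33.SolvMain

/-! VC tower (row S4070), slot ORA: the order bound in the primitive setting. -/

set_option autoImplicit false

namespace H62.VCOra

open H33.Solv H91.VC Subgroup MulAction

/-- The centraliser of a cyclic normal subgroup has index at most `φ`. -/
theorem index_cent {G : Type} [Group G] [Finite G] (Z : Subgroup G) [Z.Normal] [IsCyclic Z] :
    (centralizer (Z : Set G)).index ≤ (Nat.card Z).totient := by
  have h : centralizer (Z : Set G) = (MulAut.conjNormal (H := Z)).ker := by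
    ext g
    rw [MonoidHom.mem_ker, mem_centralizer_iff]
    refine ⟨fun h => MulEquiv.ext fun z => Subtype.ext ?_, fun h z hz => ?_⟩
    · rw [MulAut.conjNormal_apply, ← h z z.2, mul_inv_cancel_right]; rfl
    · have := congrArg Subtype.val (DFunLike.congr_fun h ⟨z, hz⟩)
      rw [MulAut.conjNormal_apply] at this
      exact (mul_inv_eq_iff_eq_mul.1 this).symm
  have : Finite (MulAut Z) := Finite.of_injective _ (DFunLike.coe_injective (F := MulAut Z))
  rw [h, index_ker, ← IsCyclic.card_mulAut]
  exact Nat.card_le_card_of_injective _ Subtype.val_injective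

theorem jobORA : JobORA := by
  intro K G V W _ _ _ _ _ _ _ _ _ _ _ _ _ s N π c
  have := c.ns.zn
  have := c.ns.cyc
  have hZ : Nat.card s.ι.range = Nat.card K - 1 := by
    rw [← Nat.card_units]
    exact (Nat.card_congr (MonoidHom.ofInjective s.inj).toEquiv).symm
  have h1 := index_cent s.ι.range
  obtain ⟨v, hv⟩ := seress c.sol c.cr
  have h2 : N.relIndex (centralizer (s.ι.range : Set G)) ≤ Nat.card W ^ 3 := by
    rw [← Nat.card_fin 3, ← Nat.card_fun]
    refine Nat.card_le_card_of_injective (fun q i => (q.out : G) • v i) fun a b e => ?_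
    rw [← a.out_eq', ← b.out_eq', QuotientGroup.eq]
    refine c.ker (a.out⁻¹ * b.out).2 (hv _ fun i => ?_)
    rw [map_mul, map_inv, mul_smul, inv_smul_eq_iff]
    exact (congrFun e i).symm
  have h3 : Nat.card G = (centralizer (s.ι.range : Set G)).index * Nat.card s.ι.range *
      (N.relIndex (centralizer (s.ι.range : Set G)) * Nat.card W) := by
    rw [c.sec.card, ← s.ι.range.card_mul_index, ← relIndex_mul_index (c.ns.le.trans c.le_C),
      ← relIndex_mul_relIndex _ _ _ c.ns.le c.le_C]
    ring
  rw [hZ] at h1 h3
  change Nat.card G ≤ _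
  rw [h3, pow_succ]
  gcongr

end H62.VCOra
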